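import Cfsg.Agent.INV.K3.Base

/-! A 2-group lemma for the case `N(V) / V = GL₃(2)`. -/

set_option autoImplicit false
set_option maxHeartbeats 400000
open Subgroup Cfsg CL.MSS CL.BG CL.KM

namespace CL.K3
variable {G : Type*} [Group G] [Finite G] {p : ℕ}

namespace D2

/-- the centre of `R / U` meets `D / U` -/
theorem step {R U D : Subgroup G} (hR : IsPGroup 2 R) (hDR : D ≤ R) (hU : R ≤ 𝐍(U)) (hD : R ≤ 𝐍(D))
    (h : ¬ D ≤ U) : ∃ s ∈ D, s ∉ U ∧ ∀ r ∈ R, s * r * s⁻¹ * r⁻¹ ∈ U := by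
  have nU : (U.subgroupOf R).Normal := ⟨fun x hx r => conj_mem (A := U) (hU r.2) hx⟩
  have nD : (D.subgroupOf R).Normal := ⟨fun x hx r => conj_mem (A := D) (hD r.2) hx⟩
  have := (hR.to_quotient (U.subgroupOf R)).isNilpotent
  have := nD.map _ (QuotientGroup.mk'_surjective (U.subgroupOf R))
  obtain ⟨⟨_, ⟨s, hs, rfl⟩, hc⟩, h1⟩ := ne_bot_iff_exists_ne_one.1
    (CL.inf_center_ne_bot_of_isNilpotent ((D.subgroupOf R).map (QuotientGroup.mk' (U.subgroupOf R)))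
      fun e => h fun x hx => (QuotientGroup.eq_one_iff (N := U.subgroupOf R) (⟨x, hDR hx⟩ : R)).1
        ((eq_bot_iff_forall _).1 e _ (mem_map_of_mem _ (show (⟨x, hDR hx⟩ : R) ∈ D.subgroupOf R from hx))))
  refine ⟨s, hs, fun e => h1 (Subtype.ext ((QuotientGroup.eq_one_iff s).2 e)), fun r hr => ?_⟩
  have := mem_center_iff.1 hc (QuotientGroup.mk' _ ⟨r, hr⟩)
  refine (QuotientGroup.eq_one_iff (N := U.subgroupOf R) (s * ⟨r, hr⟩ * s⁻¹ * ⟨r, hr⟩⁻¹ : R)).1 ?_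
  simp only [QuotientGroup.mk'_apply] at this
  simp only [QuotientGroup.mk_mul, QuotientGroup.mk_inv, ← this]
  group

/-- the preimage of the centre of `R / U` -/
def Zr (R U : Subgroup G) (h : R ≤ 𝐍(U)) : Subgroup G where
  carrier := {g | g ∈ R ∧ ∀ r ∈ R, g * r * g⁻¹ * r⁻¹ ∈ U}
  one_mem' := ⟨one_mem _, fun r _ => by simp⟩
  mul_mem' := fun {a b} ha hb => ⟨mul_mem ha.1 hb.1, fun r hr => by
    have := mul_mem (conj_mem (h ha.1) (hb.2 r hr)) (ha.2 r hr)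
    convert this using 1; group⟩
  inv_mem' := fun {a} ha => ⟨inv_mem ha.1, fun r hr => by
    have := inv_mem (conj_mem (h (inv_mem ha.1)) (ha.2 r hr))
    convert this using 1; group⟩

omit [Finite G] in
theorem Zr_conj {R U : Subgroup G} (h : R ≤ 𝐍(U)) {g x : G} (h1 : g ∈ 𝐍(R)) (h2 : g ∈ 𝐍(U))
    (hx : x ∈ Zr R U h) : g * x * g⁻¹ ∈ Zr R U h :=
  ⟨conj_mem h1 hx.1, fun r hr => by
    have := conj_mem h2 (hx.2 _ (conj_mem (inv_mem h1) hr))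
    convert this using 1; group⟩

theorem gt4 {A : Subgroup G} {z k w : G} (z1 : z ≠ 1) (hz : z ∈ A) (hk : k ∈ A) (hw : w ∈ A)
    (k1 : k ∉ zpowers z) (w1 : w ∉ zpowers z) (w2 : k⁻¹ * w ∉ zpowers z) : 4 < #|A| := by
  classical
  have m := mem_zpowers z
  have : ({1, z, k, k * z, w} : Finset G).card = 5 := by
    rw [Finset.card_insert_of_notMem, Finset.card_insert_of_notMem, Finset.card_insert_of_notMem,
      Finset.card_pair]
    · rintro rfl; exact w2 (by simpa using m)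
    · simp only [Finset.mem_insert, Finset.mem_singleton, left_eq_mul, z1, false_or]
      rintro rfl; exact w2 (by simp)
    · simp only [Finset.mem_insert, Finset.mem_singleton, right_eq_mul, not_or]
      exact ⟨fun e => k1 (e ▸ m), fun e => k1 (by simp [e]), fun e => w1 (e ▸ m)⟩
    · simp only [Finset.mem_insert, Finset.mem_singleton, not_or]
      exact ⟨z1.symm, fun e => k1 (by simp [← e]), fun e => k1 (by
        rw [eq_inv_of_mul_eq_one_left e.symm]; exact inv_mem m), fun e => w1 (by simp [← e])⟩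
  have l := Set.ncard_le_ncard (s := (({1, z, k, k * z, w} : Finset G) : Set G)) (t := A) (by
    simp only [Finset.coe_insert, Finset.coe_singleton, Set.insert_subset_iff, Set.singleton_subset_iff]
    exact ⟨one_mem _, hz, hk, mul_mem hk hz, hw⟩)
  rw [Set.ncard_coe_finset, this] at l
  exact l

theorem full {A X : Subgroup G} (h8 : #|X| = 8) (hA : A ≤ X) (h : 4 < #|A|) : X ≤ A := by
  have d := card_dvd_of_le hA
  rw [h8] at d
  have := Nat.le_of_dvd (by norm_num) d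
  refine (eq_of_le_of_card_ge hA ?_).ge
  rw [h8]
  generalize #|A| = n at *
  interval_cases n <;> simp_all

theorem third {V : Subgroup G} {z : G} (zz : z * z = 1) (h8 : #|V| = 8) (k : G) :
    ∃ w ∈ V, w ∉ zpowers z ∧ k⁻¹ * w ∉ zpowers z := by
  classical
  by_contra! n
  have l := Set.ncard_le_ncard (t := (({1, z, k, k * z} : Finset G) : Set G)) (s := V) (fun w hw => by
    simp only [Finset.coe_insert, Finset.coe_singleton, Set.mem_insert_iff, Set.mem_singleton_iff]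
    by_cases e : w ∈ zpowers z
    · rcases (CL.LX.mem_zpowers_of_sq zz).1 e with e | e <;> simp [e]
    · rcases (CL.LX.mem_zpowers_of_sq zz).1 (n w hw e) with e | e <;>
      simp [inv_mul_eq_iff_eq_mul.1 e])
  rw [Set.ncard_coe_finset] at l
  have := Finset.card_le_four (a := (1 : G)) (b := z) (c := k) (d := k * z)
  have e : (V : Set G).ncard = 8 := h8
  omega

theorem selfc {E A : Subgroup G} {z : G} (hE : CL.LX.ES E z) (h32 : #|E| = 32) (hA : EA 2 A)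
    (h8 : #|A| = 8) (AE : A ≤ E) (hz : z ∈ A) : E ⊓ 𝐂(A) ≤ A := by
  have := hE.card_centralizer AE hz
  exact (eq_of_le_of_card_ge (le_inf AE fun a ha => mem_cent.2 fun b hb => hA.1 b hb a ha)
    (by rw [h8, h32] at *; omega)).ge

omit [Finite G] in
theorem inv_eq {A : Subgroup G} (hA : EA 2 A) {a : G} (ha : a ∈ A) : a⁻¹ = a :=
  inv_eq_of_mul_eq_one_right (by rw [← pow_two, hA.2 a ha])

theorem caseU {R V U : Subgroup G} {z : G} (hR : IsPGroup 2 R) (hz : ∀ r ∈ R, Commute r z)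
    (hV : EA 2 V) (h8 : #|V| = 8) (hVR : V ≤ R) (hzV : z ∈ V)
    (hE : CL.LX.ES (R ⊓ 𝐍(V)) z) (h32 : #|(R ⊓ 𝐍(V) : Subgroup G)| = 32)
    (hU : EA 2 U) (u8 : #|U| = 8) (UE : U ≤ R ⊓ 𝐍(V)) (zU : z ∈ U)
    (cU : ∀ y ∈ U, ∀ r ∈ R, y * r * y⁻¹ * r⁻¹ ∈ zpowers z) (UV : ∀ x ∈ U, x ∈ V → x ∈ zpowers z) :
    R ≤ 𝐍(V) ∨ #|R| = 64 := by
  have ZV := zpowers_le.2 hzV
  have ZU := zpowers_le.2 zU
  have Zc : ∀ x ∈ zpowers z, ∀ r ∈ R, Commute r x := fun x ⟨i, hi⟩ r hr => hi ▸ (hz r hr).zpow_right i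
  have UR := UE.trans inf_le_left
  have CU := selfc hE h32 hU u8 UE zU
  have CV := selfc hE h32 hV h8 (le_inf hVR le_normalizer) hzV
  have RU : R ≤ 𝐍(U) := fun r hr => mem_norm fun y hy => by
    have := mul_mem (inv_mem (ZU (cU y hy r hr))) hy
    convert this using 1; group
  have RD : R ≤ 𝐍(R ⊓ 𝐂(U)) := fun r hr => norm_inf_cent (le_normalizer hr) (RU hr)
  have UD : U ≤ R ⊓ 𝐂(U) := le_inf UR fun a ha => mem_cent.2 fun b hb => hU.1 b hb a ha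
  have ED : ∀ r ∈ R, ∃ e ∈ R ⊓ 𝐍(V), e⁻¹ * r ∈ R ⊓ 𝐂(U) := fun r hr => by
    by_cases c : r ∈ 𝐂(U)
    · exact ⟨1, one_mem _, by simpa using ⟨hr, c⟩⟩
    have act : ∀ a ∈ U, ¬ Commute r a → r * a * r⁻¹ = a * z := fun a ha n => by
      have e0 : r * a * r⁻¹ = a * (a⁻¹ * r * a⁻¹⁻¹ * r⁻¹) := by group
      rcases hE.mem_zpowers_iff.1 (cU a⁻¹ (inv_mem ha) r hr) with e | e <;> rw [e] at e0
      · exact absurd (mul_inv_eq_iff_eq_mul.1 (e0.trans (mul_one a))) n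
      · exact e0
    obtain ⟨x, hx, n⟩ : ∃ x ∈ U, ¬ Commute r x := by
      by_contra! k
      exact c (mem_cent.2 fun x hx => (k x hx).symm)
    obtain ⟨y, hy, y1, y2⟩ := hE.exists_centralizes_conj (K := U ⊓ 𝐂₁(r)) (inf_le_left.trans UE)
      ⟨zU, mem_cent1.2 (hz r hr)⟩ (UE hx) fun k => n (mem_cent1.1 k.2)
    refine ⟨y, hy, mem_inf.2 ⟨mul_mem (inv_mem (mem_inf.1 hy).1) hr, mem_cent.2 fun a ha => ?_⟩⟩
    have : y * a * y⁻¹ = r * a * r⁻¹ := by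
      by_cases k : Commute r a
      · rw [← y1 a ⟨ha, mem_cent1.2 k⟩, k.eq]; group
      have zx := (hz x (UR hx)).eq
      have := y1 (a * x) ⟨mul_mem ha hx, mem_cent1.2 (mul_inv_eq_iff_eq_mul.1 (by
        rw [show r * (a * x) * r⁻¹ = r * a * r⁻¹ * (r * x * r⁻¹) by group, act a ha k, act x hx n, mul_assoc,
          ← mul_assoc z, ← zx, mul_assoc, hE.z_sq, mul_one]))⟩
      rw [act a ha k, show y * a * y⁻¹ = y * (a * x) * y⁻¹ * (y * x * y⁻¹)⁻¹ by group, ← this, y2, zx,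
        mul_inv_rev, hE.z_inv]
      group
    rw [Commute, SemiconjBy, show y⁻¹ * r * a = y⁻¹ * (r * a * r⁻¹) * r by group, ← this]
    group
  by_cases DU : R ⊓ 𝐂(U) ≤ U
  · refine .inl fun r hr => ?_
    obtain ⟨e, he, k⟩ := ED r hr
    simpa using mul_mem he.2 (UE (DU k)).2
  let φ : G → G → G := fun s v => s * v * s⁻¹ * v⁻¹
  have iv : ∀ s, ∀ v ∈ V, v * (φ s v)⁻¹ * v⁻¹ = φ s v := fun s v hv => by
    simp only [φ]
    calc _ = v ^ 2 * s * v⁻¹ * s⁻¹ * v⁻¹ := by rw [pow_two]; group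
      _ = _ := by rw [hV.2 v hv, one_mul, inv_eq hV hv]
  have c1 : ∀ s, ∀ v ∈ V, φ s v ∈ U → Commute v (φ s v) := fun s v hv h =>
    mul_inv_eq_iff_eq_mul.1 (by have := iv s v hv; rwa [inv_eq hU h] at this)
  have φm : ∀ s v w, φ s (v * w) = φ s v * (v * φ s w * v⁻¹) := fun s v w => by simp only [φ]; group
  have φa : ∀ s t v, φ (s * t) v = s * φ t v * s⁻¹ * φ s v := fun s t v => by simp only [φ]; group
  have φz : ∀ s ∈ R, ∀ x ∈ zpowers z, φ s x = 1 := fun s hs x hx => by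
    simp only [φ, (Zc x hx s hs).eq]; group
  have inj : ∀ s ∈ R ⊓ 𝐂(U), (∀ v ∈ V, φ s v ∈ U) → ∀ k ∈ V, k ∉ zpowers z → φ s k ∈ zpowers z → s ∈ U :=
    fun s hs h k hk k1 k2 => by
    have : ∀ w ∈ V, φ s w ∈ zpowers z := fun w hw => by
      by_cases w1 : w ∈ zpowers z
      · rw [φz s hs.1 w w1]; exact one_mem _
      by_cases w2 : k⁻¹ * w ∈ zpowers z
      · rw [← mul_inv_cancel_left k w, φm, φz s hs.1 _ w2]; simpa using k2
      have kw := c1 s _ (mul_mem hk hw) (h _ (mul_mem hk hw))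
      rw [φm] at kw
      have k3 := comm_conj (g := k⁻¹) ((Zc _ k2 _ (hVR (mul_mem hk hw))).inv_right.mul_right kw)
      rw [show k⁻¹ * (k * w) * k⁻¹⁻¹ = w * k by group,
        show k⁻¹ * ((φ s k)⁻¹ * (φ s k * (k * φ s w * k⁻¹))) * k⁻¹⁻¹ = φ s w by group] at k3
      have k4 := (c1 s w hw (h w hw)).inv_left.mul_left k3
      rw [inv_mul_cancel_left] at k4
      have := full h8 (inf_le_left (b := 𝐂₁(φ s w))) (gt4 hE.z_ne
        ⟨hzV, mem_cent1.2 (hz _ (UR (h w hw)))⟩ ⟨hk, mem_cent1.2 k4.symm⟩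
        ⟨hw, mem_cent1.2 (c1 s w hw (h w hw)).symm⟩ k1 w1 w2)
      exact UV _ (h w hw) (CV ⟨UE (h w hw), mem_cent.2 fun v hv => (mem_cent1.1 (this hv).2).symm⟩)
    refine CU ⟨⟨hs.1, mem_norm fun v hv => ?_⟩, hs.2⟩
    simpa [φ] using mul_mem (ZV (this v hv)) hv
  have φu : ∀ s ∈ R ⊓ 𝐂(U), ∀ t v, φ t v ∈ U → φ (s * t) v = φ t v * φ s v := fun s hs t v h => by
    rw [φa, ← (mem_cent.1 hs.2 _ h).eq, mul_inv_cancel_right]
  obtain ⟨k, hk, k1, -⟩ := third hE.z_sq h8 1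
  have add : ∀ s ∈ R ⊓ 𝐂(U), (∀ v ∈ V, φ s v ∈ U) → s ∉ U → ∀ t ∈ R ⊓ 𝐂(U), (∀ v ∈ V, φ t v ∈ U) → t ∉ U →
      s * t ∈ U := fun s hs h s1 t ht h' t1 => by
    refine inj _ (mul_mem hs ht) (fun v hv => φu s hs t v (h' v hv) ▸ mul_mem (h' v hv) (h v hv)) k hk k1 ?_
    rw [φu s hs t k (h' k hk), ← inv_eq hU (h' k hk)]
    by_contra n
    have := full u8 (inf_le_left (b := 𝐂₁(k))) (gt4 hE.z_ne ⟨zU, mem_cent1.2 (hz _ (hVR hk))⟩
      ⟨h' k hk, mem_cent1.2 (c1 t k hk (h' k hk))⟩ ⟨h k hk, mem_cent1.2 (c1 s k hk (h k hk))⟩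
      (fun e => t1 (inj t ht h' k hk k1 e)) (fun e => s1 (inj s hs h k hk k1 e)) n)
    exact k1 (UV k (CU ⟨⟨hVR hk, le_normalizer hk⟩, mem_cent.2 fun y hy => (mem_cent1.1 (this hy).2).symm⟩) hk)
  obtain ⟨s₁, s1D, s1U, s1c⟩ := step hR inf_le_left RU RD DU
  have s1V : ∀ v ∈ V, φ s₁ v ∈ U := fun v hv => s1c v (hVR hv)
  set W := R ⊓ 𝐂(U) ⊓ Zr R U RU with hW
  have UW : U ≤ W := le_inf UD fun y hy => ⟨UR hy, fun r hr => ZU (cU y hy r hr)⟩
  have WV : ∀ c ∈ W, ∀ v ∈ V, φ c v ∈ U := fun c hc v hv => hc.2.2 v (hVR hv)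
  have DW : R ⊓ 𝐂(U) ≤ W := by
    by_contra n
    obtain ⟨s, sD, sW, sc⟩ := step hR inf_le_left (U := W) (fun r hr => mem_norm fun x hx =>
      ⟨conj_mem (RD hr) hx.1, Zr_conj RU (le_normalizer hr) (RU hr) hx.2⟩) RD n
    obtain ⟨v, hv, v1⟩ : ∃ v ∈ V, φ s v ∉ U := by
      by_contra! h
      have := mul_mem (UW (add s sD h (fun e => sW (UW e)) s₁ s1D s1V s1U))
        (inv_mem (show s₁ ∈ W from ⟨s1D, s1D.1, s1c⟩))
      exact sW (by simpa using this)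
    obtain ⟨w, hw, w1, w2⟩ : ∃ w ∈ V, φ s w ∉ U ∧ v * w ∉ zpowers z := by
      obtain ⟨w, hw, w1, w2⟩ := third hE.z_sq h8 v
      rw [inv_eq hV hv] at w2
      by_cases e : φ s w ∈ U
      · refine ⟨v * w, mul_mem hv hw, fun e' => v1 ?_, ?_⟩
        · rw [φm] at e'
          exact (mul_mem_cancel_right (conj_mem (RU (hVR hv)) e)).1 e'
        · rwa [← mul_assoc, ← pow_two, hV.2 v hv, one_mul]
      · exact ⟨w, hw, e, w2⟩
    have cv : φ s v ∈ W := sc v (hVR hv)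
    have cw : φ s w ∈ W := sc w (hVR hw)
    have hy := add _ cv.1 (WV _ cv) v1 _ cw.1 (WV _ cw) w1
    have i1 := iv s v hv
    have i2 := iv s w hw
    generalize φ s v = c at *
    generalize φ s w = d at *
    refine v1 ((inv_mem_iff (x := c)).1 (inj _ (inv_mem cv).1 (WV _ (inv_mem cv)) _ (mul_mem hv hw) w2 ?_))
    have yz : φ (c * d) w ∈ zpowers z := cU _ hy w (hVR hw)
    have e1 : φ c⁻¹ v = c⁻¹ * c⁻¹ := by
      simp only [φ]; nth_rw 4 [← i1]; group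
    have e2 : φ d w = d * d := by
      simp only [φ]; nth_rw 4 [← i2]; group
    have e3 := φu _ (inv_mem cv).1 (c * d) w (ZU yz)
    have e4 : d * d = c⁻¹ * c⁻¹ := by
      have := (mem_cent.1 (inv_mem cv).1.2 _ hy).eq
      calc d * d = c⁻¹ * (c * d * c⁻¹) * (c * d) := by group
        _ = c⁻¹ * c⁻¹ * (c * d) ^ 2 := by rw [this, pow_two]; group
        _ = _ := by rw [hU.2 _ hy, mul_one]
    rw [inv_mul_cancel_left, e2, e4] at e3
    rw [φm, e1, ← inv_mul_cancel_left (φ (c * d) w) (φ c⁻¹ w), ← e3,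
      ← (Zc _ (inv_mem yz) _ (mul_mem (inv_mem cv).1.1 (inv_mem cv).1.1)).eq,
      show ∀ x : G, c⁻¹ * c⁻¹ * (v * (c⁻¹ * c⁻¹ * x) * v⁻¹) =
        c⁻¹ * c⁻¹ * (v * c⁻¹ * v⁻¹) * (v * c⁻¹ * v⁻¹) * (v * x * v⁻¹) from fun x => by group, i1,
      (Zc _ (inv_mem yz) v (hVR hv)).eq]
    simpa using yz
  refine .inr ?_
  rw [card_eq_mul (q := 2) inf_le_left (relIndex_eq_two_iff.2 ⟨s₁, s1D.1, fun r hr => ?_⟩), h32]
  obtain ⟨e, he, k⟩ := ED r hr
  by_cases n : e⁻¹ * r ∈ U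
  · have := (mul_mem_cancel_left (inv_mem he)).1 (UE n)
    exact .inr ⟨this, fun h => s1U (CU ⟨(mul_mem_cancel_left this).1 h, s1D.2⟩)⟩
  · have := UE (add _ k (WV _ (DW k)) n s₁ s1D s1V s1U)
    rw [mul_assoc] at this
    exact .inl ⟨(mul_mem_cancel_left (inv_mem he)).1 this, fun h => n (CU (mem_inf.2 ⟨mul_mem (inv_mem he) h, k.2⟩))⟩

end D2

open D2

/-- `E = R ⊓ N(V)`, `U = {g ∈ R : [g,R] ≤ ⟨z⟩}`.  Either `V ≤ U` or `U` is elementary of order 8 with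
`U ⊓ V = ⟨z⟩` (`caseU`). -/
theorem caseD_card {R V : Subgroup G} {u z : G} (hR : IsPGroup 2 R) (hz : ∀ r ∈ R, Commute r z)
    (hV : EA 2 V) (h8 : #|V| = 8) (hVR : V ≤ R) (hzV : z ∈ V)
    (hE : CL.LX.ES (R ⊓ 𝐍(V)) z) (h32 : #|(R ⊓ 𝐍(V) : Subgroup G)| = 32)
    (hu : orderOf u = 3) (huR : u ∈ 𝐍(R)) (huV : u ∈ 𝐍(V)) (huz : Commute u z)
    (hfp : ∀ g ∈ R ⊓ 𝐍(V), (u * g * u⁻¹ = g ∨ u * g * u⁻¹ = g * z) → g = 1 ∨ g = z) :
    R ≤ 𝐍(V) ∨ #|R| = 64 := by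
  have Zm : ∀ {x}, x ∈ zpowers z ↔ x = 1 ∨ x = z := hE.mem_zpowers_iff
  have ZV := zpowers_le.2 hzV
  have nZ : ∀ g, Commute g z → g ∈ 𝐍(zpowers z) := fun g h =>
    cent_le_norm fun x ⟨i, hi⟩ => hi ▸ (h.zpow_right i).symm
  have RZ : R ≤ 𝐍(zpowers z) := fun r hr => nZ r (hz r hr)
  have z2 : #|zpowers z| = 2 := by rw [Nat.card_zpowers, hE.orderOf_z]
  set U := Zr R _ RZ with hU
  have five : ∀ A ≤ R ⊓ 𝐍(V), z ∈ A → (∀ a ∈ A, u * a * u⁻¹ ∈ A) → ∀ a ∈ A, a ∉ zpowers z → 4 < #|A| :=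
    fun A hA hz h a ha a1 => gt4 hE.z_ne hz ha (h a ha) a1
      (fun e => a1 (by simpa [mul_assoc] using conj_mem (inv_mem (nZ u huz)) e)) fun e =>
      a1 (Zm.2 (hfp a (hA ha) ((Zm.1 e).imp (fun e => (inv_mul_eq_one.1 e).symm) inv_mul_eq_iff_eq_mul.1)))
  by_cases VU : V ≤ U
  · refine .inl fun r hr => mem_norm fun v hv => ?_
    have := mul_mem (inv_mem (ZV ((VU hv).2 r hr))) hv
    convert this using 1; group
  have uU : ∀ a ∈ U, u * a * u⁻¹ ∈ U := fun a ha => Zr_conj RZ huR (nZ u huz) ha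
  have UE : U ≤ R ⊓ 𝐍(V) := fun y hy => ⟨hy.1, mem_norm fun v hv => by
    simpa using mul_mem (ZV (hy.2 v (hVR hv))) hv⟩
  have zU : z ∈ U := ⟨hVR hzV, fun r hr => by rw [← (hz r hr).eq]; simp⟩
  have UV : ∀ x ∈ U, x ∈ V → x ∈ zpowers z := fun x hx hv => by
    by_contra n
    exact VU ((full h8 inf_le_right (five (U ⊓ V) (inf_le_left.trans UE) ⟨zU, hzV⟩
      (fun a ha => ⟨uU a ha.1, conj_mem huV ha.2⟩) x ⟨hx, hv⟩ n)).trans inf_le_left)
  obtain ⟨a, aR, a1, ac⟩ := step hR le_rfl RZ le_normalizer fun e => by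
    have := card_le_of_le (hVR.trans e); omega
  have u8 : #|U| = 8 := by
    have g := five U UE zU uU a ⟨aR, ac⟩ a1
    have VE : V ≤ R ⊓ 𝐍(V) := le_inf hVR le_normalizer
    have i1 := card_eq_mul VE rfl
    rw [h8, h32] at i1
    have i2 := card_eq_mul (inf_le_right : V ⊓ U ≤ U) rfl
    have i3 := relIndex_le_of_le_right (H := V) UE (by rintro e; rw [e] at i1; omega)
    have i4 := card_le_of_le (show V ⊓ U ≤ zpowers z from fun x hx => UV x hx.2 hx.1)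
    rw [inf_relIndex_right] at i2
    have d := card_dvd_of_le UE
    rw [h32] at d
    have : #|U| ≤ 8 := by
      rw [i2]; exact Nat.mul_le_mul (show V.relIndex U ≤ 4 by omega) (i4.trans z2.le)
    generalize #|U| = n at g d this ⊢
    interval_cases n <;> first | rfl | norm_num at d
  have RU : R ≤ 𝐍(U) := fun r hr => mem_norm fun x hx => Zr_conj RZ (le_normalizer hr) (RZ hr) hx
  obtain ⟨s, ⟨sR, sC⟩, s1, sc⟩ := step hR (inf_le_left (b := 𝐂(U))) RZ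
    (fun r hr => norm_inf_cent (le_normalizer hr) (RU hr)) fun e => by
      have := hE.card_centralizer UE zU
      have := card_le_of_le ((inf_le_inf_right 𝐂(U) (inf_le_left (b := 𝐍(V)))).trans e)
      rw [u8, h32] at *
      omega
  have uN : u ∈ 𝐍(U) := mem_norm uU
  have ab := full u8 inf_le_left (five (U ⊓ 𝐂(U)) (inf_le_left.trans UE)
    ⟨zU, mem_cent.2 fun x hx => hz x hx.1⟩ (fun a ha => ⟨uU a ha.1, conj_mem_cent uN ha.2⟩) s ⟨⟨sR, sc⟩, sC⟩ s1)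
  have cm : ∀ a ∈ U, ∀ b ∈ U, Commute a b := fun a ha b hb => mem_cent.1 (ab hb).2 a ha
  let Ω : Subgroup G :=
    { carrier := {x | x ∈ U ∧ x ^ 2 = 1}
      one_mem' := ⟨one_mem _, one_pow _⟩
      mul_mem' := fun {a b} ha hb => ⟨mul_mem ha.1 hb.1, by rw [(cm a ha.1 b hb.1).mul_pow, ha.2, hb.2, mul_one]⟩
      inv_mem' := fun {a} ha => ⟨inv_mem ha.1, by rw [inv_pow, ha.2, inv_one]⟩ }
  have aU : a ∈ U := ⟨aR, ac⟩
  obtain ⟨b, hb, b1⟩ : ∃ b ∈ Ω, b ∉ zpowers z := by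
    rcases hE.sq a (UE aU) with e | e
    · exact ⟨a, ⟨aU, by rw [pow_two, e]⟩, a1⟩
    · refine ⟨a⁻¹ * (u * a * u⁻¹), ⟨mul_mem (inv_mem aU) (uU a aU), ?_⟩, fun e =>
        a1 (Zm.2 (hfp a (UE aU) ((Zm.1 e).imp (fun e => (inv_mul_eq_one.1 e).symm) inv_mul_eq_iff_eq_mul.1)))⟩
      rw [(cm _ (inv_mem aU) _ (uU a aU)).mul_pow, conj_pow, inv_pow, pow_two, e, huz.eq]
      group
  have := full u8 (A := Ω) (fun x hx => hx.1) (five Ω (fun x hx => UE hx.1) ⟨zU, by rw [pow_two, hE.z_sq]⟩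
    (fun a ha => ⟨uU a ha.1, by rw [conj_pow, ha.2]; group⟩) b hb b1)
  exact caseU hR hz hV h8 hVR hzV hE h32 ⟨cm, fun a ha => (this ha).2⟩ u8 UE zU (fun y hy => hy.2) UV

end CL.K3
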