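import Cfsg.Agent.INV.K3.L3B
import Cfsg.Agent.INV.K3.CaseD2

/-! `N(V) / V = GL₃(2)`: the extraspecial group of order 32. -/

set_option autoImplicit false
set_option maxHeartbeats 400000
open Subgroup Cfsg CL.MSS CL.BG CL.KM

namespace CL.K3
variable {G : Type*} [Group G] [Finite G] {p : ℕ}

namespace D1

theorem le_two {H X : Subgroup G} (h : ∀ x ∈ X, x ∉ H → ∀ y ∈ X, y ∉ H → x⁻¹ * y ∈ H) :
    #|X| ≤ 2 * #|(X ⊓ H : Subgroup G)| := by
  by_cases hX : X ≤ H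
  · rw [inf_of_le_left hX]; omega
  obtain ⟨x, hx, hxH⟩ := SetLike.not_le_iff_exists.1 hX
  have h2 : (H.subgroupOf X).index = 2 := index_eq_two_iff'.2 ⟨(⟨x, hx⟩ : X)⁻¹, fun y => by
    by_cases hy : (y : G) ∈ H
    · exact Or.inr ⟨hy, fun e => hxH (H.inv_mem_iff.1 ((H.mul_mem_cancel_right hy).1 e))⟩
    · exact Or.inl ⟨h x hx hxH y y.2 hy, hy⟩⟩
  rw [← (H.subgroupOf X).index_mul_card, h2, ← inf_subgroupOf_left,
    Nat.card_congr (subgroupOfEquivOfLe (inf_le_left : X ⊓ H ≤ X)).toEquiv]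

theorem two {K L : Subgroup G} (hK : K ≤ L) (h : #|L| ≤ 2 * #|K|) {a b : G} (ha : a ∈ L) (hb : b ∈ L)
    (a1 : a ∉ K) (b1 : b ∉ K) : a⁻¹ * b ∈ K := by
  have i := card_eq_mul hK rfl
  have := Nat.card_pos (α := K)
  have := Nat.card_pos (α := L)
  have n1 : K.relIndex L ≠ 1 := fun e => a1 (relIndex_eq_one.1 e ha)
  have : K.relIndex L = 2 := by
    generalize K.relIndex L = n at *
    have : n ≤ 2 := by nlinarith
    interval_cases n <;> omega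
  exact (mul_mem_iff_of_index_two (H := K.subgroupOf L) this (a := ⟨a, ha⟩⁻¹) (b := ⟨b, hb⟩)).2
    (iff_of_false (fun e => a1 (K.inv_mem_iff.1 e)) b1)

end D1
open D1 D2

/-- `H = N(V)`, `E = Qz z ⊓ H ≥ V` (`L3D.mem_iff`); a conjugate `T` of a Sylow 2-subgroup of `H` centralizes `z`,
`idx` gives `|E| ≥ 32`; `E/V` embeds in `Hom(V/⟨z⟩, ⟨z⟩)`; `u` has no fixed points on `E/V`, `V/⟨z⟩`. -/
theorem L3D.es (h : Smp G p) (ht : Thin G) {V : Subgroup G} {y u z : G} (d : L3D V y u z)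
    (hV : 𝐂(V) = V) :
    CL.LX.ES (Qz z ⊓ 𝐍(V)) z ∧ #|(Qz z ⊓ 𝐍(V) : Subgroup G)| = 32 ∧
      (∀ g ∈ Qz z ⊓ 𝐍(V), (u * g * u⁻¹ = g ∨ u * g * u⁻¹ = g * z) → g = 1 ∨ g = z) ∧
      ∃ T : Subgroup G, IsPGroup 2 T ∧ T ≤ 𝐂₁(z) ∧ Qz z ⊓ 𝐍(V) ≤ T ∧ ¬ T ≤ Qz z := by
  have h8 := d.card
  have zz : z * z = 1 := by rw [← pow_two, d.ea.2 z d.zV]
  have zo : orderOf z = 2 := CL.LX.orderOf_eq_two_of d.z1 zz
  have Zm : ∀ {x}, x ∈ zpowers z ↔ x = 1 ∨ x = z := CL.LX.mem_zpowers_of_sq zz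
  have ZV := zpowers_le.2 d.zV
  have nZ : ∀ g, Commute g z → g ∈ 𝐍(zpowers z) := fun g h =>
    cent_le_norm fun x ⟨i, hi⟩ => hi ▸ (h.zpow_right i).symm
  set E := Qz z ⊓ 𝐍(V) with hE
  have act : ∀ g ∈ E, ∀ v ∈ V, g * v * g⁻¹ = v ∨ g * v * g⁻¹ = v * z := fun g hg =>
    (d.mem_iff ht hg.2).1 hg.1
  have act' : ∀ g ∈ E, ∀ v ∈ V, ¬ Commute v g → g * v * g⁻¹ = v * z := fun g hg v hv n =>
    (act g hg v hv).resolve_left fun e => n (mul_inv_eq_iff_eq_mul.1 e).symm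
  have VE : V ≤ E := fun v hv => ⟨(d.mem_iff ht (le_normalizer hv)).2 fun w hw =>
    .inl (by rw [(d.ea.1 v hv w hw).eq, mul_inv_cancel_right]), le_normalizer hv⟩
  have Ez : ∀ g ∈ E, Commute g z := fun g hg => (mem_cent1.1 (oP_le _ hg.1)).symm
  have Zc : ∀ x ∈ zpowers z, ∀ r ∈ E, Commute r x := fun x ⟨i, hi⟩ r hr => hi ▸ (Ez r hr).zpow_right i
  have CE : ∀ g, Commute g z → g ∈ 𝐍(V) → ∀ x ∈ E, g * x * g⁻¹ ∈ E := fun g h1 h2 x hx =>
    mem_inf.2 ⟨conj_mem (oP_normal _ (mem_cent1.2 h1.symm)) hx.1,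
      mul_mem (mul_mem h2 (mem_inf.1 hx).2) (inv_mem h2)⟩
  have uE := CE u d.uz d.uN
  have CV : ∀ g, (∀ v ∈ V, Commute v g) → g ∈ V := fun g k => hV ▸ mem_cent.2 k
  have fpV : ∀ x ∈ V, x⁻¹ * (u * x * u⁻¹) ∈ zpowers z → x ∈ zpowers z := fun x hx e => by
    have c : Commute u x := by
      rcases Zm.1 e with e | e
      · exact mul_inv_eq_iff_eq_mul.1 (inv_mul_eq_one.1 e).symm
      refine commute_of_sq (p := 3) (by decide) (d.u3 ▸ pow_orderOf_eq_one u) (mul_inv_eq_iff_eq_mul.1 ?_)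
      rw [inv_mul_eq_iff_eq_mul] at e
      rw [show u * u * x * (u * u)⁻¹ = u * (u * x * u⁻¹) * u⁻¹ by group, e,
        show u * (x * z) * u⁻¹ = u * x * u⁻¹ * (u * z * u⁻¹) by group, e, d.uz.eq, mul_inv_cancel_right,
        mul_assoc, zz, mul_one]
    have := ht.r2 u (V ⊓ 𝐂₁(u)) d.u3 (d.ea.mono inf_le_left) fun a ha => mem_cent1.1 ha.2
    exact (eq_of_le_of_card_ge (zpowers_le.2 (mem_inf.2 ⟨d.zV, mem_cent1.2 d.uz⟩))
      (by rwa [Nat.card_zpowers, zo])).ge ⟨hx, mem_cent1.2 c⟩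
  have uZ : ∀ {x}, u * x * u⁻¹ ∈ zpowers z → x ∈ zpowers z := fun e => by
    simpa [mul_assoc] using conj_mem (inv_mem (nZ u d.uz)) e
  have five : ∀ A ≤ V, z ∈ A → (∀ a ∈ A, u * a * u⁻¹ ∈ A) → ∀ a ∈ A, a ∉ zpowers z → V ≤ A :=
    fun A hA hz h a ha a1 => full h8 hA (gt4 d.z1 hz ha (h a ha) a1 (fun e => a1 (uZ e))
      fun e => a1 (fpV a (hA ha) e))
  obtain ⟨a, ha, a1, -⟩ := third zz h8 1
  obtain ⟨b, hb, b1, b2⟩ := third zz h8 a
  have fpE : ∀ g ∈ E, g⁻¹ * (u * g * u⁻¹) ∈ V → g ∈ V := fun g hg e => by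
    obtain ⟨c, hc, c1, c2⟩ : ∃ c ∈ V, c ∉ zpowers z ∧ Commute c g := by
      by_cases ca : Commute a g
      · exact ⟨a, ha, a1, ca⟩
      by_cases cb : Commute b g
      · exact ⟨b, hb, b1, cb⟩
      refine ⟨_, mul_mem (inv_mem ha) hb, b2, (mul_inv_eq_iff_eq_mul.1 ?_ : g * _ = _ * g).symm⟩
      rw [show g * (a⁻¹ * b) * g⁻¹ = (g * a * g⁻¹)⁻¹ * (g * b * g⁻¹) by group, act' g hg a ha ca,
        act' g hg b hb cb, (Ez b (VE hb)).eq, (Ez a (VE ha)).eq]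
      group
    refine CV g fun v hv => (mem_cent1.1 (five (V ⊓ 𝐂₁(g)) inf_le_left ⟨d.zV, mem_cent1.2 (Ez g hg)⟩
      (fun x hx => ⟨conj_mem d.uN hx.1, mem_cent1.2 ?_⟩) c ⟨hc, mem_cent1.2 c2.symm⟩ c1 hv).2).symm
    have := (comm_conj (g := u) (mem_cent1.1 hx.2)).mul_left (d.ea.1 _ (inv_mem e) _ (conj_mem d.uN hx.1))
    rwa [show u * g * u⁻¹ * (g⁻¹ * (u * g * u⁻¹))⁻¹ = g by group] at this
  have half : ∀ K ≤ E, ∀ v ∈ V, #|K| ≤ 2 * #|(K ⊓ 𝐂₁(v) : Subgroup G)| := fun K hK v hv =>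
    le_two fun x hx x1 w hw w1 => mem_cent1.2 (by
      have e1 := act' x (hK hx) v hv fun e => x1 (mem_cent1.2 e)
      have e2 := act' w (hK hw) v hv fun e => w1 (mem_cent1.2 e)
      rw [Commute, SemiconjBy, show v * (x⁻¹ * w) = x⁻¹ * (x * v * x⁻¹) * w by group, e1, ← e2]
      group)
  have l32 : #|E| ≤ 32 := by
    have h1 := half E le_rfl a ha
    have h2 := half (E ⊓ 𝐂₁(a)) inf_le_left b hb
    have h3 := card_le_of_le (show E ⊓ 𝐂₁(a) ⊓ 𝐂₁(b) ≤ V from fun g hg => CV g fun v hv =>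
      (mem_cent1.1 (full h8 (inf_le_left (b := 𝐂₁(g))) (gt4 d.z1 ⟨d.zV, mem_cent1.2 (Ez g hg.1.1)⟩
        ⟨ha, mem_cent1.2 (mem_cent1.1 hg.1.2).symm⟩ ⟨hb, mem_cent1.2 (mem_cent1.1 hg.2).symm⟩ a1 b1 b2)
        hv).2).symm)
    omega
  obtain ⟨T, T2, T64, TN, TC⟩ : ∃ T : Subgroup G, IsPGroup 2 T ∧ #|T| = 64 ∧ T ≤ 𝐍(V) ∧ T ≤ 𝐂₁(z) := by
    obtain ⟨K, hK⟩ := Sylow.exists_subgroup_card_pow_prime (G := 𝐍(V)) 2 (n := 6) (by
      rw [d.cardN, hV, h8]; decide)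
    have K2 : IsPGroup 2 (K.map 𝐍(V).subtype) := (IsPGroup.of_card hK).map _
    have KN : K.map 𝐍(V).subtype ≤ 𝐍(V) := map_subtype_le _
    obtain ⟨s, hs, s1, sc⟩ := step (U := ⊥) (isPGroup_sup_of_normalizes K2 d.ea.isPGroup KN) le_sup_right
      (fun r _ => mem_norm fun x hx => by simpa using hx) (sup_le KN le_normalizer)
      fun e => d.z1 (e d.zV)
    obtain ⟨i, rfl⟩ := (d.trans h).2 s hs s1
    refine ⟨(y ^ i)⁻¹ •ᶜ K.map 𝐍(V).subtype, isPGroup_cj _ K2, by rw [card_cj, card_subtype, hK]; rfl,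
      fun x hx => ?_, fun x hx => mem_cent1.2 ?_⟩
    · have yN := pow_mem d.yN i
      have := mul_mem (mul_mem (inv_mem yN) (KN (mem_cj.1 hx))) yN
      simpa [mul_assoc] using this
    · have := mem_bot.1 (sc _ (mem_sup_left (mem_cj.1 hx)))
      rw [Commute, SemiconjBy, ← mul_inv_eq_iff_eq_mul, ← mul_inv_eq_one, ← conj_eq_one_iff (a := y ^ i), ← this]
      group
  have h32 : #|E| = 32 := by
    have := ht.idx z T zo TC T2
    have := card_le_of_le (show T ⊓ Qz z ≤ E from fun x hx => ⟨hx.2, TN hx.1⟩)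
    omega
  have Ep : IsPGroup 2 E := (oP_isPGroup _).to_inf_left
  let C : G → Subgroup G := fun x =>
    { carrier := {w | w ∈ E ∧ x * w * x⁻¹ * w⁻¹ ∈ zpowers z}
      one_mem' := ⟨one_mem _, by simp⟩
      mul_mem' := fun {a b} ha hb => ⟨mul_mem ha.1 hb.1, by
        have := mul_mem ha.2 (conj_mem (nZ a (Ez a ha.1)) hb.2)
        convert this using 1; group⟩
      inv_mem' := fun {a} ha => ⟨inv_mem ha.1, by
        have := inv_mem (conj_mem (inv_mem (nZ a (Ez a ha.1))) ha.2)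
        convert this using 1; group⟩ }
  have CE' : ∀ x, C x ≤ E := fun x w hw => hw.1
  have VC : ∀ x ∈ E, V ≤ C x := fun x hx v hv => ⟨VE hv, by
    rcases act x hx v hv with e | e <;> rw [e]
    · simp
    · rw [(Ez v (VE hv)).eq]; simp⟩
  have c16 : ∀ x ∈ E, x ∉ V → 16 ≤ #|C x| := fun x hx n => by
    have := mul_card_le_of_lt (Ep.to_le (CE' x)) (lt_of_le_of_ne (VC x hx) fun e => n (e.ge ⟨hx, by simp⟩))
    omega
  have cV : ∀ x ∈ E, ∀ w ∈ E, (w * x)⁻¹ * (x * w) ∈ V := fun x hx w hw => CV _ fun v hv => by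
    have k : ∀ g ∈ E, ∃ c ∈ zpowers z, g * v = v * c * g := fun g hg => by
      rcases act g hg v hv with e | e
      · exact ⟨1, one_mem _, by rw [mul_one, ← mul_inv_eq_iff_eq_mul, e]⟩
      · exact ⟨z, mem_zpowers z, by rw [← mul_inv_eq_iff_eq_mul, e]⟩
    obtain ⟨c, hc, e1⟩ := k x hx
    obtain ⟨c', hc', e2⟩ := k w hw
    have : x * w * v * (x * w)⁻¹ = w * x * v * (w * x)⁻¹ := by
      rw [mul_assoc x, e2, mul_assoc w, e1, ← mul_assoc, ← mul_assoc, ← mul_assoc, ← mul_assoc, e1, e2,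
        mul_assoc _ x, (Zc c' hc' x hx).eq, mul_assoc _ w c, (Zc c hc w hw).eq, ← mul_assoc, ← mul_assoc,
        mul_assoc v c, mul_assoc v c', (Zc c hc c' (VE (ZV hc'))).eq]
      group
    rw [Commute, SemiconjBy, show v * ((w * x)⁻¹ * (x * w)) = (w * x)⁻¹ * (w * x * v * (w * x)⁻¹) * (x * w) by
      group, ← this]
    group
  have sy : ∀ x ∈ E, ∀ w ∈ C x, x ∈ C w := fun x hx w hw => ⟨hx, by simpa [mul_assoc] using inv_mem hw.2⟩
  have cm : ∀ x ∈ E, E ≤ C x := fun x hx => by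
    by_cases xV : x ∈ V
    · exact fun w hw => sy w hw x (VC w hw xV)
    have hw := uE x hx
    have wV : u * x * u⁻¹ ∉ V := fun e => xV (by simpa [mul_assoc] using conj_mem (inv_mem d.uN) e)
    have k : x ∈ C (u * x * u⁻¹) := by
      by_contra n
      have e : u * (x * (u * x * u⁻¹) * x⁻¹ * (u * x * u⁻¹)⁻¹) * u⁻¹ =
        u * x * u⁻¹ * (u * (u * x * u⁻¹) * u⁻¹) * (u * x * u⁻¹)⁻¹ * (u * (u * x * u⁻¹) * u⁻¹)⁻¹ := by group
      have hw' := uE _ hw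
      generalize u * x * u⁻¹ = w at *
      refine n (sy _ hx _ ⟨hw, ?_⟩)
      by_cases m : u * w * u⁻¹ ∈ C w
      · exact uZ (e ▸ m.2)
      have cv : x * w * x⁻¹ * w⁻¹ ∈ V := by simpa [mul_assoc] using cV _ (inv_mem hx) _ (inv_mem hw)
      have := (two (CE' w) (by have := c16 w hw wV; omega) hx hw' n m).2
      refine fpV _ cv ?_
      rw [e, inv_eq d.ea cv]
      have := conj_mem (nZ _ (Ez _ (mul_mem (VE cv) (mul_mem (inv_mem (VE cv)) hx)))) this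
      convert this using 1; group
    by_contra n
    have := mul_card_le_of_lt Ep (lt_of_le_of_ne (CE' x) fun e => n e.ge)
    exact xV (fpE x hx (two (VC x hx) (by omega) ⟨hx, by simp⟩ (sy _ hw _ k) xV wV))
  have cent : ∀ x ∈ E, (∀ w ∈ E, x * w = w * x) → x = 1 ∨ x = z := fun x hx c => by
    refine Zm.1 ?_
    by_contra n
    have := five (V ⊓ 𝐂(E)) inf_le_left ⟨d.zV, mem_cent.2 Ez⟩
      (fun a ha => ⟨conj_mem d.uN ha.1, conj_mem_cent (mem_norm uE) ha.2⟩) x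
      ⟨CV x fun v hv => (c v (VE hv)).symm, mem_cent.2 fun w hw => (c w hw).symm⟩ n
    have := card_le_of_le (show E ≤ V from fun g hg => CV g fun v hv => (mem_cent.1 (this hv).2 g hg).symm)
    omega
  have cm' : ∀ x ∈ E, ∀ w ∈ E, x * w = w * x ∨ x * w = w * x * z := fun x hx w hw => by
    have e0 : x * w = x * w * x⁻¹ * w⁻¹ * (w * x) := by group
    rcases Zm.1 (cm x hx hw).2 with e | e <;> rw [e] at e0
    · exact .inl (e0.trans (one_mul _))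
    · exact .inr (e0.trans (Ez _ (mul_mem hw hx)).eq.symm)
  refine ⟨⟨VE d.zV, d.z1, zz, Ez, cent, cm', fun x hx => cent _ (mul_mem hx hx) fun w hw => ?_, ?_⟩, h32,
    fun g hg e => ?_, Qz z ⊔ T, isPGroup_sup_of_normalizes' (oP_isPGroup _) T2 (TC.trans (oP_normal _)),
    sup_le (oP_le _) TC, inf_le_left.trans le_sup_left, fun e => ?_⟩
  · rcases cm' x hx w hw with e | e
    · rw [mul_assoc, e, ← mul_assoc, e, mul_assoc]
    · rw [mul_assoc, e, ← mul_assoc, ← mul_assoc, e, mul_assoc _ z, ← (Ez x hx).eq, mul_assoc, mul_assoc,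
        mul_assoc x z, zz, mul_one]
  · by_contra! c
    have := card_le_of_le (show E ≤ V from fun g hg => CV g fun v hv => c v (VE hv) g hg)
    omega
  · have : g⁻¹ * (u * g * u⁻¹) ∈ zpowers z := by
      rcases e with e | e <;> simp [e]
    exact Zm.1 (fpV g (fpE g hg (ZV this)) this)
  · have := card_le_of_le (show T ≤ E from le_inf (le_sup_right.trans e) TN)
    omega

end CL.K3
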