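import Cfsg.Agent.INV.K3.Base

/-! `L₂(17)` has no `𝔽₂`-module on which elements of order 3 act without fixed points. -/

set_option autoImplicit false

namespace CL.K3

open Matrix
open scoped MatrixGroups

namespace L217

def a : SL(2, ZMod 17) := ⟨!![0, 16; 1, 16], by decide⟩
def b : SL(2, ZMod 17) := ⟨!![0, 10; 5, 16], by decide⟩

theorem core {K V : Type*} [Group K] [Group V] [Nontrivial V] (hV : ∀ v : V, v * v = 1)
    (ρ : K →* MulAut V) (h3 : ∀ u : K, orderOf u = 3 → ∀ v : V, ρ u v = v → v = 1) {u u' : K}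
    (hu : orderOf u = 3) (hu' : orderOf u' = 3) (h4 : (u * u') ^ 4 = 1)
    (ht : orderOf ((u * u') ^ 2 * ((u' * u) * (u * u') ^ 2 * (u' * u)⁻¹)) = 3) : False := by
  have inv : ∀ v : V, v⁻¹ = v := fun v => inv_eq_of_mul_eq_one_right (hV v)
  let _ : CommGroup V := { mul_comm := fun x y => by rw [← inv (x * y), _root_.mul_inv_rev, inv, inv] }
  have hV' : ∀ v w : V, v * (v * w) = w := fun v w => by rw [← mul_assoc, hV, one_mul]
  have ap : ∀ (x y : K) (v : V), ρ (x * y) v = ρ x (ρ y v) := fun x y v => by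
    rw [map_mul]; rfl
  have cube : ∀ x : K, orderOf x = 3 → x * x * x = 1 := fun x hx => by
    rw [← pow_three', ← hx, pow_orderOf_eq_one]
  have sq : ∀ x : K, orderOf x = 3 → ∀ v : V, ρ x (ρ x v) = v * ρ x v := by
    intro x hx v
    have h1 : ρ x (ρ x (ρ x v)) = v := by rw [← ap, ← ap, cube x hx, map_one]; rfl
    have := h3 x hx (v * ρ x v * ρ x (ρ x v)) (by
      rw [map_mul, map_mul, h1]
      simp only [mul_comm, mul_left_comm])
    rw [mul_eq_one_iff_inv_eq, inv] at this
    exact this.symm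
  have iv : ∀ x : K, orderOf x = 3 → x⁻¹ = x * x := fun x hx =>
    inv_eq_of_mul_eq_one_left (cube x hx)
  have hW : ∀ v : V, ρ ((u * u') ^ 2) v = v ↔
      ρ u (ρ u' v) * (v * ρ u v * ρ u' v * ρ u' (ρ u v)) = 1 := by
    intro v
    have h1 : ρ (u * u')⁻¹ v = v * ρ u v * ρ u' v * ρ u' (ρ u v) := by
      rw [_root_.mul_inv_rev, iv u hu, iv u' hu', ap, ap, ap, sq u' hu', sq u hu, map_mul, ← mul_assoc]
    rw [← h1, ← ap, mul_eq_one_iff_eq_inv, inv, pow_two, ap, map_inv]
    exact (MulEquiv.eq_symm_apply _).symm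
  have iu : ∀ v, ρ ((u * u') ^ 2) v = v → ρ ((u * u') ^ 2) (ρ u v) = ρ u v := by
    intro v hv
    have := congrArg (ρ u) ((hW v).1 hv)
    rw [hW, ← map_one (ρ u), ← this]
    simp only [map_mul, sq u hu, mul_comm, mul_left_comm, hV, hV', mul_one]
  have iu' : ∀ v, ρ ((u * u') ^ 2) v = v → ρ ((u * u') ^ 2) (ρ u' v) = ρ u' v := by
    intro v hv
    have := congrArg (ρ u') ((hW v).1 hv)
    rw [hW, ← map_one (ρ u'), ← this]
    simp only [map_mul, sq u' hu', mul_comm, mul_left_comm, hV']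
  obtain ⟨w, hw1, hw⟩ : ∃ w : V, w ≠ 1 ∧ ρ ((u * u') ^ 2) w = w := by
    obtain ⟨v, hv⟩ := exists_ne (1 : V)
    by_cases h : ρ ((u * u') ^ 2) v = v
    · exact ⟨v, hv, h⟩
    refine ⟨v * ρ ((u * u') ^ 2) v, fun e => h ?_, ?_⟩
    · rw [mul_eq_one_iff_inv_eq, inv] at e
      exact e.symm
    · rw [map_mul, ← ap, ← pow_add, h4, map_one, mul_comm]
      rfl
  refine hw1 (h3 _ ht w ?_)
  have h5 : ρ ((u * u') ^ 2) (ρ (u' * u)⁻¹ w) = ρ (u' * u)⁻¹ w := by
    rw [_root_.mul_inv_rev, iv u hu, iv u' hu', ap, ap, ap]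
    exact iu _ (iu _ (iu' _ (iu' _ hw)))
  rw [ap, ap, ap (u' * u), h5, ← ap (u' * u), mul_inv_cancel, map_one]
  exact hw

end L217

/-- WLOG F = ZMod 17.  In End(V) (V additive, exponent 2) every u of order 3 satisfies u² + u + 1 = 0
(v + uv + u²v is fixed).  For u, u' of order 3 and g = u u', c = g + g⁻¹ = uu' + u'u + u + u' + 1 commutes with u and u'.
Choose (explicit matrices, `decide`) u, u' with g of order 4 in PSL₂(17) and a word k in u, u' such that
g² · k g² k⁻¹ has order 3 or 9 (or use more conjugates).  W = ker c = C_V(g²) (g² + 1 = g c) is nontrivial (an involution on a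
2-group V ≠ 1), invariant under u, u', so g² and k g² k⁻¹ and hence an element of order 3 fix W pointwise.
Data: u = !![0,16;1,16], u' = !![0,10;5,16], g = !![12,1;12,11], g² = !![3,6;4,14], k = u' u gives order 3. -/
theorem no17 {K V : Type*} [Group K] [Group V] [Finite V] [Nontrivial V] (hV : ∀ v : V, v * v = 1)
    (ρ : K →* MulAut V) (h3 : ∀ u : K, orderOf u = 3 → ∀ v : V, ρ u v = v → v = 1)
    {F : Type} [Field F] [Fintype F] (hF : Fintype.card F = 17)
    (e : K ≃* Matrix.ProjectiveSpecialLinearGroup (Fin 2) F) : False := by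
  have : Fact (Nat.Prime 3) := ⟨Nat.prime_three⟩
  let ε : ZMod 17 ≃+* F := ZMod.ringEquivOfPrime F (by norm_num) hF
  let f : SL(2, ZMod 17) →* SL(2, F) := SpecialLinearGroup.map ε.toRingHom
  have hf : Function.Injective f := fun a b h => by
    ext i j
    exact ε.injective (congrArg (fun m : SL(2, F) => m.1 i j) h)
  let ψ : SL(2, ZMod 17) →* K :=
    e.symm.toMonoidHom.comp ((QuotientGroup.mk' (Subgroup.center SL(2, F))).comp f)
  have hψ : ∀ x, ψ x = 1 ↔ f x ∈ Subgroup.center SL(2, F) := fun x =>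
    (map_eq_one_iff _ e.symm.injective).trans (QuotientGroup.eq_one_iff _)
  have h1 : ψ (-1) = 1 := by
    have : f (-1) = -1 := by
      ext i j
      fin_cases i <;> fin_cases j <;> simp [f]
    rw [hψ, this, Subgroup.mem_center_iff]
    intro g
    simp
  have o3 : ∀ x y, x ^ 3 = 1 ∨ x ^ 3 = -1 → y * x ≠ x * y → orderOf (ψ x) = 3 := by
    intro x y hx hy
    refine orderOf_eq_prime ?_ fun h => hy (hf ?_)
    · rw [← map_pow]
      rcases hx with h | h <;> rw [h]
      · exact map_one ψ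
      · exact h1
    · rw [map_mul, map_mul]
      exact Subgroup.mem_center_iff.1 ((hψ x).1 h) _
  refine L217.core hV ρ h3 (u := ψ L217.a) (u' := ψ L217.b) (o3 _ L217.b (by decide) (by decide))
    (o3 _ L217.a (by decide) (by decide)) ?_ ?_
  · rw [← map_mul, ← map_pow, ← h1]
    congr 1
    decide
  · simp only [← map_mul, ← map_pow, ← map_inv]
    exact o3 _ L217.a (by decide) (by decide)

end CL.K3
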