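import Cfsg.Agent.INV.K3.Base
import Cfsg.Agent.INV.K3.CaseD2

/-! Common facts for `N(V) / C(V) = GL₃(2)`. -/

set_option autoImplicit false
open Subgroup Cfsg CL.MSS CL.BG CL.KM

namespace CL.K3
variable {G : Type*} [Group G] [Finite G] {p : ℕ}

omit [Finite G] in
theorem L3D.zz {V : Subgroup G} {y u z : G} (d : L3D V y u z) : z * z = 1 := by
  rw [← sq]; exact d.ea.2 z d.zV

omit [Finite G] in
theorem L3D.oz {V : Subgroup G} {y u z : G} (d : L3D V y u z) : orderOf z = 2 :=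
  orderOf_eq_prime (d.ea.2 z d.zV) d.z1

/-- ⟨y⟩ acts on the 7 elements of V# without fixed point. -/
theorem L3D.trans (h : Smp G p) {V : Subgroup G} {y u z : G} (d : L3D V y u z) :
    p = 7 ∧ ∀ v ∈ V, v ≠ 1 → ∃ i : ℕ, v = y ^ i * z * (y ^ i)⁻¹ := by
  have p7 : p = 7 := by
    have := h.prime_dvd (r := 7) (by norm_num) (d.y7 ▸ orderOf_dvd_natCard y)
    omega
  refine ⟨p7, fun v hv v1 => ?_⟩
  have key : ∀ i j : ℕ, i < j → j < 7 → y ^ i * z * (y ^ i)⁻¹ ≠ y ^ j * z * (y ^ j)⁻¹ := by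
    intro i j hij hj e
    obtain ⟨k, rfl⟩ := Nat.exists_eq_add_of_lt hij
    have e1 : Commute (y ^ (k + 1)) z := by
      rw [add_assoc, pow_add] at e
      have : z = y ^ (k + 1) * z * (y ^ (k + 1))⁻¹ := by
        calc z = (y ^ i)⁻¹ * (y ^ i * z * (y ^ i)⁻¹) * y ^ i := by group
          _ = _ := by rw [e]; simp [mul_assoc]
      exact (eq_mul_inv_iff_mul_eq.1 this).symm
    have e2 : orderOf (y ^ (k + 1)) = p := by
      rw [p7, ← d.y7]
      refine Nat.Coprime.orderOf_pow ?_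
      rw [d.y7]
      exact (Nat.Prime.coprime_iff_not_dvd (by norm_num)).2 fun hd => by
        have := Nat.le_of_dvd (by omega) hd
        omega
    exact d.z1 (h.fpf2 e2 e1 (k := 1) (by simpa [sq] using d.zz))
  let f : Fin 7 → {x : V // x ≠ 1} := fun i => ⟨⟨y ^ (i : ℕ) * z * (y ^ (i : ℕ))⁻¹,
    conj_mem (pow_mem d.yN _) d.zV⟩, fun e => d.z1 (by simpa using congrArg Subtype.val e)⟩
  have hf : Function.Injective f := fun i j e => by
    have e' : y ^ (i : ℕ) * z * (y ^ (i : ℕ))⁻¹ = y ^ (j : ℕ) * z * (y ^ (j : ℕ))⁻¹ :=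
      congrArg (fun x => (x.1.1 : G)) e
    rcases lt_trichotomy (i : ℕ) j with h1 | h1 | h1
    · exact (key _ _ h1 j.2 e').elim
    · exact Fin.ext h1
    · exact (key _ _ h1 i.2 e'.symm).elim
  have hc : Nat.card {x : V // x ≠ 1} = 7 := by
    classical
    have := Fintype.ofFinite V
    rw [Nat.card_eq_fintype_card, Fintype.card_subtype_compl, Fintype.card_subtype_eq,
      ← Nat.card_eq_fintype_card, d.card]
  have hb := (Nat.bijective_iff_injective_and_card f).2 ⟨hf, by rw [hc]; simp⟩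
  obtain ⟨i, hi⟩ := hb.2 ⟨⟨v, hv⟩, fun e => v1 (congrArg Subtype.val e)⟩
  exact ⟨i, (congrArg (fun x => (x.1.1 : G)) hi).symm⟩

/-- the transvections with centre `z` -/
def L3D.tv {V : Subgroup G} {y u z : G} (d : L3D V y u z) : Subgroup G where
  carrier := {g | g ∈ 𝐍(V) ∧ g * z * g⁻¹ = z ∧ ∀ v ∈ V, g * v * g⁻¹ = v ∨ g * v * g⁻¹ = v * z}
  one_mem' := ⟨one_mem _, by simp, fun v _ => Or.inl (by simp)⟩
  mul_mem' := fun {a b} ha hb => ⟨mul_mem ha.1 hb.1, by
      rw [show a * b * z * (a * b)⁻¹ = a * (b * z * b⁻¹) * a⁻¹ by group, hb.2.1, ha.2.1],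
    fun v hv => by
      rw [show a * b * v * (a * b)⁻¹ = a * (b * v * b⁻¹) * a⁻¹ by group]
      rcases hb.2.2 v hv with e | e
      · rw [e]; exact ha.2.2 v hv
      · rw [e, show a * (v * z) * a⁻¹ = a * v * a⁻¹ * (a * z * a⁻¹) by group, ha.2.1]
        rcases ha.2.2 v hv with e' | e'
        · exact Or.inr (by rw [e'])
        · exact Or.inl (by rw [e', mul_assoc, d.zz, mul_one])⟩
  inv_mem' := fun {a} ha => ⟨inv_mem ha.1, by
      conv_lhs => rw [← ha.2.1]
      group,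
    fun v hv => by
      have hw := conj_mem (inv_mem ha.1) hv
      have e0 : a * (a⁻¹ * v * a⁻¹⁻¹) * a⁻¹ = v := by group
      rcases ha.2.2 _ hw with e | e
      · exact Or.inl (e.symm.trans e0)
      · refine Or.inr ?_
        rw [e0] at e
        conv_rhs => rw [e]
        rw [mul_assoc _ z z, d.zz, mul_one]⟩

/-- `Qz z ⊓ N(V)` is the group of transvections with centre `z`. -/
theorem L3D.mem_iff (ht : Thin G) {V : Subgroup G} {y u z : G} (d : L3D V y u z) {g : G}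
    (hg : g ∈ 𝐍(V)) : g ∈ Qz z ↔ ∀ v ∈ V, g * v * g⁻¹ = v ∨ g * v * g⁻¹ = v * z := by
  have zz := d.zz
  have uz : u * z * u⁻¹ = z := by rw [d.uz.eq]; group
  refine ⟨fun h => ?_, fun h => ?_⟩
  · set X : Subgroup G := Qz z ⊓ 𝐍(V) with hX
    have hXp : IsPGroup 2 X := (oP_isPGroup _).to_le inf_le_left
    have hR : IsPGroup 2 (X ⊔ V : Subgroup G) :=
      IsPGroup.to_sup_of_normal_right' hXp d.ea.isPGroup inf_le_right
    have hRz : X ⊔ V ≤ 𝐂₁(z) := sup_le (inf_le_left.trans (oP_le _))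
      fun v hv => mem_cent1.2 (d.ea.1 z d.zV v hv)
    have hN := (zpowers_two d.oz).2.2
    have hU : X ⊔ V ≤ 𝐍(zpowers z) := hN ▸ hRz
    obtain ⟨s, hs, hsz, hs'⟩ := D2.step hR le_sup_right hU (sup_le inf_le_right le_normalizer)
      fun hle => by
        have := card_le_of_le hle
        rw [d.card, Nat.card_zpowers, d.oz] at this
        omega
    have uC : u ∈ 𝐂₁(z) := mem_cent1.2 d.uz.symm
    have uR : u ∈ 𝐍((X ⊔ V : Subgroup G)) :=
      normalizer_inf_normalizer_le_normalizer_sup _ _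
        ⟨inf_normalizer_le_normalizer_inf ⟨oP_normal _ uC, le_normalizer d.uN⟩, d.uN⟩
    have hsW : s ∈ D2.Zr _ _ hU ⊓ V := ⟨⟨mem_sup_right hs, hs'⟩, hs⟩
    have hzW : z ∈ D2.Zr _ _ hU ⊓ V := ⟨⟨mem_sup_right d.zV, fun r hr => by
      rw [(mem_cent1.1 (hRz hr)).eq]; simp⟩, d.zV⟩
    have huW : u * s * u⁻¹ ∈ D2.Zr _ _ hU ⊓ V :=
      ⟨D2.Zr_conj hU uR (hN ▸ uC) hsW.1, conj_mem d.uN hs⟩
    have mz := fun {x : G} => CL.LX.mem_zpowers_of_sq (x := x) zz
    have nc : ¬ Commute u s := fun hc => by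
      have h2 := ht.r2 u (V ⊓ 𝐂₁(u)) d.u3 (d.ea.mono inf_le_left) fun a ha => mem_cent1.1 ha.2
      have h3 : zpowers z < V ⊓ 𝐂₁(u) := lt_of_le_of_ne
        (zpowers_le.2 ⟨d.zV, mem_cent1.2 d.uz⟩) fun e => hsz (e ▸ ⟨hs, mem_cent1.2 hc⟩)
      have h4 := mul_card_le_of_lt (d.ea.mono inf_le_left).isPGroup h3
      rw [Nat.card_zpowers, d.oz] at h4
      omega
    have hW : V ≤ D2.Zr _ _ hU ⊓ V := D2.full d.card inf_le_right
      (D2.gt4 d.z1 hzW hsW huW hsz (fun hm => hsz (by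
        have := conj_mem (inv_mem (hN ▸ uC)) hm
        simpa [mul_assoc] using this)) fun hm => nc (by
        rcases mz.1 hm with e | e
        · rw [inv_mul_eq_one, eq_mul_inv_iff_mul_eq] at e
          exact e.symm
        · rw [inv_mul_eq_iff_eq_mul] at e
          have e2 : Commute (u * u) s := by
            have : u * u * s * (u * u)⁻¹ = s := by
              rw [show u * u * s * (u * u)⁻¹ = u * (u * s * u⁻¹) * u⁻¹ by group, e,
                show u * (s * z) * u⁻¹ = u * s * u⁻¹ * (u * z * u⁻¹) by group, e, uz, mul_assoc, zz,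
                mul_one]
            exact mul_inv_eq_iff_eq_mul.1 this
          exact commute_of_sq (p := 3) (by decide) (d.u3 ▸ pow_orderOf_eq_one u) e2))
    intro v hv
    have h1 := (hW hv).1.2 g (mem_sup_left ⟨h, hg⟩)
    have h2 : v * g * v⁻¹ * g⁻¹ = v * (g * v * g⁻¹)⁻¹ := by group
    rw [h2, D2.inv_eq d.ea (conj_mem hg hv)] at h1
    rcases mz.1 h1 with e | e
    · exact Or.inl (by rw [eq_inv_of_mul_eq_one_right e, D2.inv_eq d.ea hv])
    · refine Or.inr ?_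
      rw [← e, ← mul_assoc, ← sq, d.ea.2 v hv, one_mul]
  · have gz : g * z * g⁻¹ = z := by
      rcases h z d.zV with e | e
      · exact e
      · rw [zz] at e
        exact (d.z1 (by simpa using e)).elim
    refine ht.inv z u d.tv d.oz d.u3 d.uz (fun a ha => mem_cent1.2 ?_) ?_ (mem_norm fun a ha => ?_)
      ⟨hg, gz, h⟩
    · exact (mul_inv_eq_iff_eq_mul.1 ha.2.1).symm
    · rintro ⟨a, ha⟩
      have h1 : a * a ∈ 𝐂(V) := mem_cent.2 fun v hv => by
        have : a * a * v * (a * a)⁻¹ = v := by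
          rw [show a * a * v * (a * a)⁻¹ = a * (a * v * a⁻¹) * a⁻¹ by group]
          rcases ha.2.2 v hv with e | e
          · rw [e, e]
          · rw [e, show a * (v * z) * a⁻¹ = a * v * a⁻¹ * (a * z * a⁻¹) by group, e, ha.2.1,
              mul_assoc, zz, mul_one]
        exact (mul_inv_eq_iff_eq_mul.1 this).symm
      rw [d.cent] at h1
      obtain ⟨k, hk⟩ := pg_elem (oP_isPGroup _) h1
      refine ⟨k + 1, Subtype.ext ?_⟩
      rw [pow_succ', pow_mul, sq]
      exact hk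
    · have uz' : u⁻¹ * z * u = z := by
        conv_lhs => rw [← uz]
        group
      refine ⟨mul_mem (mul_mem d.uN ha.1) (inv_mem d.uN), ?_, fun v hv => ?_⟩
      · rw [show u * a * u⁻¹ * z * (u * a * u⁻¹)⁻¹ = u * (a * (u⁻¹ * z * u) * a⁻¹) * u⁻¹ by group,
          uz', ha.2.1, uz]
      · rw [show u * a * u⁻¹ * v * (u * a * u⁻¹)⁻¹ = u * (a * (u⁻¹ * v * u⁻¹⁻¹) * a⁻¹) * u⁻¹ by group]
        rcases ha.2.2 _ (conj_mem (inv_mem d.uN) hv) with e | e
        · exact Or.inl (by rw [e]; group)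
        · refine Or.inr ?_
          rw [e, show u * (u⁻¹ * v * u⁻¹⁻¹ * z) * u⁻¹ = v * (u * z * u⁻¹) by group, uz]

end CL.K3
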