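import Cfsg.Agent.INV.K3.Base
import Cfsg.Agent.FGS.HigSec
import Cfsg.Agent.TECH.SL2Irr
import Cfsg.Agent.KSG.GL2Group

/-! Higman's theorem in the form needed. -/

set_option autoImplicit false
open Subgroup Cfsg CL.MSS CL.BG CL.KM

namespace CL.K3
variable {G : Type*} [Group G] [Finite G] {p : ℕ}

namespace NL
open CL.Hig
open scoped MatrixGroups

section Mod
variable {K : Type*} [Field K] [Fintype K] [CharP K 2] {A : Type*} [AddCommGroup A]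
  [DistribMulAction SL(2, K) A]

theorem mem_Fix_of (M : Mod K A) {c : K} (hc : c ≠ 0) {v : A} (hv : u c • v = v) : v ∈ Hig.Fix K := by
  obtain ⟨y, hy, z, hz, rfl⟩ := M.exists_eq v
  rw [smul_add, mem_Fix.1 hy, u_n, add_right_inj, add_eq_left] at hv
  rw [M.sm_eq_zero hz hc hv, smul_zero, add_zero]
  exact hy

theorem card_sq (M : Mod K A) : Nat.card (Hig.Fix K : AddSubgroup A) ^ 2 = Nat.card A := by
  rw [pow_two, ← Nat.card_prod]
  refine Nat.card_eq_of_bijective (fun z => (z.1 : A) + n K • (z.2 : A)) ⟨fun z z' h => ?_, fun v => ?_⟩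
  · have h1 : (z.1 : A) + n K • (z.2 : A) = (z'.1 : A) + n K • (z'.2 : A) := h
    have h2 : n K • ((z.2 : A) - z'.2) = z'.1 - z.1 := by
      rw [smul_sub]; linear_combination (norm := abel) h1
    have h3 := M.eq_zero (sub_mem z.2.2 z'.2.2) (h2 ▸ sub_mem z'.1.2 z.1.2)
    rw [h3, smul_zero] at h2
    exact Prod.ext (Subtype.ext (sub_eq_zero.1 h2.symm).symm) (Subtype.ext (sub_eq_zero.1 h3))
  · obtain ⟨y, hy, z, hz, rfl⟩ := M.exists_eq v
    exact ⟨(⟨y, hy⟩, ⟨z, hz⟩), rfl⟩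

theorem card_pow [Finite A] (M : Mod K A) :
    ∃ d, Nat.card (Hig.Fix K : AddSubgroup A) = Fintype.card K ^ d := by
  let : SMul K (Hig.Fix K : AddSubgroup A) := ⟨fun c z => ⟨sm c z, M.sm_mem z.2 c⟩⟩
  let : Module K (Hig.Fix K : AddSubgroup A) := Module.ofMinimalAxioms
    (fun c y z => Subtype.ext (sm_add c (y : A) z)) (fun a b z => Subtype.ext (M.add_sm z.2 a b))
    (fun a b z => Subtype.ext (M.mul_sm z.2 a b)) fun z => Subtype.ext (M.one_sm z.2)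
  exact ⟨_, by rw [Module.natCard_eq_pow_finrank (K := K), Nat.card_eq_fintype_card]⟩

end Mod

theorem exists_mod.{v} {K : Type*} [Field K] [Fintype K] [CharP K 2] {H : Type v} [Group H] [Finite H]
    (φ : H →* SL(2, K)) (hφ : Function.Surjective φ) (hQ : IsPGroup 2 φ.ker)
    (hK : ∃ w : K, w ≠ 0 ∧ w ≠ 1) {x : H} (hx : orderOf x = 3)
    (hfpf : ∀ q ∈ φ.ker, x * q * x⁻¹ = q → q = 1) :
    EA 2 φ.ker ∧ ∃ (A : Type v) (_ : AddCommGroup A) (_ : DistribMulAction SL(2, K) A) (π : H → A),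
      Sec φ φ.ker ⊥ π ∧ Mod K A := by
  have h0 := ea_iff.2 (main φ hφ hQ hK hx hfpf).1
  have h3 : x ^ 3 = 1 := hx ▸ pow_orderOf_eq_one x
  have h1 : φ x ≠ 1 := fun h => by
    have := hfpf x h (by group)
    simp [this] at hx
  have h2 : ∀ q ∈ φ.ker, q * (x * q * x⁻¹) * (x * (x * q * x⁻¹) * x⁻¹) = 1 := fun q hq => by
    have := MonoidHom.FixedPointFree.prod_pow_eq_one (φ := (MulAut.conjNormal x : MulAut φ.ker))
      (fun q h => Subtype.ext (hfpf q q.2 (congrArg Subtype.val h))) (n := 3) (funext fun q =>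
        Subtype.ext (by
          have : x * (x * (x * q * x⁻¹) * x⁻¹) * x⁻¹ = x ^ 3 * q * (x ^ 3)⁻¹ := by
            simp only [pow_three]; group
          rw [h3, one_mul, inv_one, mul_one] at this
          exact this)) ⟨q, hq⟩
    simpa [List.range_succ, mul_assoc] using congrArg Subtype.val this
  obtain ⟨A, _, _, π, S⟩ := exists_sec φ hφ φ.ker ⊥ le_rfl (commutator_le.2 fun a ha b hb =>
    mem_bot.2 (commutatorElement_eq_one_iff_commute.2 (h0.1 a ha b hb)))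
  exact ⟨h0, A, inferInstance, inferInstance, π, S,
    S.mod hQ hK h1 (by rw [← map_pow, h3, map_one]) h2⟩

theorem aux {K : Type} [Field K] [Fintype K] [CharP K 2] {q : ℕ} (hq : Fintype.card K = q)
    (hq4 : q = 4 ∨ q = 8) {L Q J : Subgroup G} (φ : L →* SL(2, K))
    (surj : Function.Surjective φ) (ker : ∀ x : L, φ x = 1 ↔ (x : G) ∈ Q) (hQL : Q ≤ L)
    (hQ : IsPGroup 2 Q) (hQ0 : Q ≠ ⊥)
    (fpf : ∀ u ∈ L, orderOf u = 3 → ∀ x ∈ Q, Commute u x → x = 1) (hJ : SylIn 2 J L)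
    (hU : (J.subgroupOf L).map φ = CL.Push.uGrp K) :
    EA 2 Q ∧ Q ≤ J ∧ #|J| = q * #|Q| ∧ (∀ j ∈ J, j * j ∈ Q) ∧
      (∀ j ∈ J, j ∉ Q → ∀ x ∈ Q, Commute j x → x ∈ 𝐂(J)) ∧
      #|(Q ⊓ 𝐂(J) : Subgroup G)| ^ 2 = #|Q| ∧
      (#|(Q ⊓ 𝐂(J) : Subgroup G)| = q ∨ 2 * q < #|(Q ⊓ 𝐂(J) : Subgroup G)|) := by
  have hker : φ.ker = Q.subgroupOf L := Subgroup.ext fun x => ker x
  have hLN : L ≤ 𝐍(Q) := (normal_subgroupOf_iff_le_normalizer hQL).1 (hker ▸ inferInstance)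
  have hQJ : Q ≤ J := hJ.le_of_normalized hQ hQL (hJ.le.trans hLN)
  have hu : ∀ j (hj : j ∈ J), ∃ c, φ ⟨j, hJ.le hj⟩ = u c := fun j hj => by
    obtain ⟨c, hc⟩ : φ ⟨j, hJ.le hj⟩ ∈ CL.Push.uGrp K := hU ▸ mem_map_of_mem φ hj
    exact ⟨c, hc.symm⟩
  have hu' : ∀ c, ∃ j, ∃ hj : j ∈ J, φ ⟨j, hJ.le hj⟩ = u c := fun c => by
    obtain ⟨j, hj, hc⟩ : u c ∈ (J.subgroupOf L).map φ := hU ▸ ⟨c, rfl⟩
    exact ⟨j, hj, hc⟩
  obtain ⟨x, hx⟩ : ∃ x : L, orderOf x = 3 := by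
    refine exists_prime_orderOf_dvd_card' 3 (Dvd.dvd.trans ?_ (card_dvd_of_surjective φ surj))
    rw [CL.GL2.card_SL2, hq]
    rcases hq4 with rfl | rfl <;> norm_num
  obtain ⟨hE, A, _, _, π, S, M⟩ := exists_mod φ surj (hker ▸ isPGroup_subgroupOf hQ L)
    (by
      classical
      by_contra! hn
      have : (Finset.univ : Finset K) ⊆ {0, 1} := fun w _ => by
        by_cases h : w = 0
        · simp [h]
        · simp [hn w h]
      have h2 := (Finset.card_le_card this).trans Finset.card_le_two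
      rw [Finset.card_univ, hq] at h2
      omega) hx fun y hy e => Subtype.ext (fpf x x.2 (by rw [orderOf_coe, hx]) y ((ker y).1 hy)
        (mul_inv_eq_iff_eq_mul.1 (congrArg Subtype.val e)))
  have hk : ∀ y (hy : y ∈ Q), (⟨y, hQL hy⟩ : L) ∈ φ.ker := fun y hy => (ker _).2 hy
  have hinj : ∀ a ∈ φ.ker, ∀ b ∈ φ.ker, π a = π b → a = b := fun a ha b hb e =>
    inv_mul_eq_one.1 (mem_bot.1 ((S.eq_iff ha hb).1 e))
  have hcomm : ∀ (g : L), ∀ y (hy : y ∈ Q), Commute (g : G) y ↔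
      φ g • π ⟨y, hQL hy⟩ = π ⟨y, hQL hy⟩ := fun g y hy => by
    rw [← S.act g _ (hk y hy)]
    constructor
    · intro h
      congr 1
      exact Subtype.ext (mul_inv_eq_iff_eq_mul.2 h.eq)
    · intro h
      exact mul_inv_eq_iff_eq_mul.1 (congrArg Subtype.val
        (hinj _ (Normal.conj_mem inferInstance _ (hk y hy) g) _ (hk y hy) h))
  have hfix : ∀ y (hy : y ∈ Q), y ∈ 𝐂(J) ↔ π ⟨y, hQL hy⟩ ∈ Hig.Fix K := fun y hy => by
    rw [mem_cent, mem_Fix]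
    constructor
    · intro h c
      obtain ⟨j, hj, e⟩ := hu' c
      rw [← e, ← hcomm _ y hy]
      exact h j hj
    · intro h j hj
      obtain ⟨c, e⟩ := hu j hj
      exact (hcomm ⟨j, hJ.le hj⟩ y hy).2 (e ▸ h c)
  have hA : #|Q| = Nat.card A :=
    Nat.card_eq_of_bijective (fun y => π ⟨y, hQL y.2⟩) ⟨fun a b e =>
      Subtype.ext (congrArg (Subtype.val : L → G) (hinj _ (hk _ a.2) _ (hk _ b.2) e)), fun v => by
        obtain ⟨y, hy, rfl⟩ := S.surj v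
        exact ⟨⟨y, (ker y).1 hy⟩, rfl⟩⟩
  have hZ : #|(Q ⊓ 𝐂(J) : Subgroup G)| = Nat.card (Hig.Fix K : AddSubgroup A) :=
    Nat.card_eq_of_bijective (fun y => ⟨π ⟨y, hQL y.2.1⟩, (hfix _ y.2.1).1 y.2.2⟩) ⟨fun a b e =>
      Subtype.ext (congrArg (Subtype.val : L → G)
        (hinj _ (hk _ a.2.1) _ (hk _ b.2.1) (congrArg Subtype.val e))), fun v => by
        obtain ⟨y, hy, e⟩ := S.surj v
        exact ⟨⟨y, (ker y).1 hy, (hfix _ ((ker y).1 hy)).2 (e ▸ v.2)⟩, Subtype.ext e⟩⟩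
  have h1 : 1 < #|Q| := one_lt_card_iff_ne_bot Q |>.2 hQ0
  have : Finite A := Nat.finite_of_card_ne_zero (by omega)
  have h2 := card_sq M
  obtain ⟨d, hd⟩ := card_pow M
  refine ⟨⟨fun a ha b hb => congrArg Subtype.val (hE.1 _ (hk a ha) _ (hk b hb)).eq,
    fun a ha => congrArg Subtype.val (hE.2 _ (hk a ha))⟩, hQJ, card_eq_mul hQJ ?_, fun j hj => ?_,
    fun j hj hjQ y hy e => ?_, by rw [hZ, hA, h2], ?_⟩
  · rw [← relIndex_subgroupOf hJ.le, ← hker, relIndex_ker, hU, CL.Push.card_uGrp,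
      Nat.card_eq_fintype_card, hq]
  · obtain ⟨c, e⟩ := hu j hj
    refine (ker (⟨j, hJ.le hj⟩ * ⟨j, hJ.le hj⟩)).1 ?_
    rw [map_mul, e, u_mul, CharTwo.add_self_eq_zero, u_zero]
  · obtain ⟨c, e'⟩ := hu j hj
    have hc : c ≠ 0 := by
      rintro rfl
      exact hjQ ((ker ⟨j, hJ.le hj⟩).1 (e'.trans u_zero))
    exact (hfix y hy).2 (mem_Fix_of M hc (e' ▸ (hcomm ⟨j, hJ.le hj⟩ y hy).1 e))
  · rw [hZ, hd, hq]
    rw [hA, ← h2, hd] at h1
    match d, h1 with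
    | 0, h1 => simp at h1
    | 1, _ => exact Or.inl (pow_one q)
    | d + 2, _ =>
      right
      have : 0 < q ^ d := Nat.pow_pos (by omega)
      rw [pow_add]
      rcases hq4 with rfl | rfl <;> omega

end NL

/-- Higman's theorem: `Q` is a sum of natural modules. -/
theorem natL {K : Type} [Field K] [Fintype K] [CharP K 2] {q : ℕ} (hq : Fintype.card K = q)
    (hq4 : q = 4 ∨ q = 8) {L Q J : Subgroup G} (φ : L →* Matrix.SpecialLinearGroup (Fin 2) K)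
    (surj : Function.Surjective φ) (ker : ∀ x : L, φ x = 1 ↔ (x : G) ∈ Q) (hQL : Q ≤ L)
    (hQ : IsPGroup 2 Q) (hQ0 : Q ≠ ⊥)
    (fpf : ∀ u ∈ L, orderOf u = 3 → ∀ x ∈ Q, Commute u x → x = 1) (hJ : SylIn 2 J L) :
    EA 2 Q ∧ Q ≤ J ∧ #|J| = q * #|Q| ∧ (∀ j ∈ J, j * j ∈ Q) ∧
      (∀ j ∈ J, j ∉ Q → ∀ x ∈ Q, Commute j x → x ∈ 𝐂(J)) ∧
      #|(Q ⊓ 𝐂(J) : Subgroup G)| ^ 2 = #|Q| ∧
      (#|(Q ⊓ 𝐂(J) : Subgroup G)| = q ∨ 2 * q < #|(Q ⊓ 𝐂(J) : Subgroup G)|) := by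
  have h1 := hJ.subgroupOf le_rfl
  rw [subgroupOf_self] at h1
  obtain ⟨g, hg⟩ := CL.Push.exists_map_eq_uGrp h1 φ surj
  exact NL.aux hq hq4 _ ((MulAut.conj g).surjective.comp surj)
    (fun x => ((MulAut.conj g).map_eq_one_iff).trans (ker x)) hQL hQ hQ0 fpf hJ hg

end CL.K3
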