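import Cfsg.Agent.INV.K3.TwoEA

/-! `N(Q) / Q ≅ S₅`. -/

set_option autoImplicit false
open Subgroup Cfsg CL.MSS CL.BG CL.KM

namespace CL.K3
variable {G : Type*} [Group G] [Finite G] {p : ℕ}

namespace S5

open Equiv Equiv.Perm

abbrev c0 : Perm (Fin 5) := swap 0 1 * swap 1 2
abbrev c1 : Perm (Fin 5) := swap 2 3 * swap 3 4
abbrev t0 : Perm (Fin 5) := swap 0 1
abbrev v0 : Perm (Fin 5) := swap 0 1 * swap 2 3

theorem p1 : ∀ τ : Perm (Fin 5), τ 4 = 4 → sign τ ≠ 1 → (c0 * (τ * c0 * τ⁻¹)) 4 = 4 ∧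
    sign (c0 * (τ * c0 * τ⁻¹)) = 1 ∧ (c0 * (τ * c0 * τ⁻¹)) * (c0 * (τ * c0 * τ⁻¹)) = 1 := by
  decide +kernel

theorem p2 : ∀ σ : Perm (Fin 5), σ 4 = 4 → σ * σ = 1 → sign σ ≠ 1 →
    ∃ ρ : Perm (Fin 5), ρ 4 = 4 ∧ ρ⁻¹ * σ * ρ = t0 := by
  decide +kernel

theorem p3 : ∀ σ : Perm (Fin 5), σ 4 = 4 ∧ sign σ = 1 ∧ σ * σ = 1 → σ * t0 = t0 * σ → σ ≠ 1 →
    (σ * (c1 * σ * c1⁻¹)) ^ 3 = 1 ∧ σ * (c1 * σ * c1⁻¹) ≠ 1 := by
  decide +kernel

theorem two_le {B : Subgroup (Perm (Fin 5))} (hB : IsPGroup 2 B) : #|B| ≤ 8 := by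
  have : Fact (Nat.Prime 2) := ⟨Nat.prime_two⟩
  obtain ⟨k, hk⟩ := hB.exists_card_eq
  have h := card_subgroup_dvd_card B
  rw [hk, Nat.card_perm, Nat.card_eq_fintype_card, Fintype.card_fin] at h
  rw [hk]
  by_contra hn
  have h4 : 4 ≤ k := by
    by_contra h3
    have : 2 ^ k ≤ 2 ^ 3 := Nat.pow_le_pow_right (by norm_num) (by omega)
    omega
  exact absurd ((pow_dvd_pow 2 h4).trans h) (by decide)

theorem ea_le {B : Subgroup (Perm (Fin 5))} (hB : ∀ b ∈ B, b ^ 2 = 1) : #|B| ≤ 4 := by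
  have : Fact (Nat.Prime 2) := ⟨Nat.prime_two⟩
  have hp : IsPGroup 2 B := isPGroup_iff_forall_mem.2 fun b hb => ⟨1, hB b hb⟩
  by_contra hn
  obtain ⟨P, hP⟩ := hp.exists_le_sylow
  have h1 : B = P := by
    refine eq_of_le_of_card_ge hP ((two_le P.isPGroup').trans ?_)
    obtain ⟨k, hk⟩ := hp.exists_card_eq
    rw [hk] at hn ⊢
    by_contra h
    have h3 : 3 ≤ k := by
      by_contra h3
      have : 2 ^ k ≤ 2 ^ 2 := Nat.pow_le_pow_right (by norm_num) (by omega)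
      omega
    exact h (Nat.pow_le_pow_right (n := 2) (by norm_num) h3)
  obtain ⟨P', hP'⟩ := (isPGroup_zpowers (p := 2) (k := 2)
    (x := (swap 0 1 * swap 1 2 * swap 2 3 : Perm (Fin 5))) (by decide)).exists_le_sylow
  obtain ⟨g, hg⟩ := MulAction.exists_smul_eq (Perm (Fin 5)) P' P
  have h2 := hB (g * (swap 0 1 * swap 1 2 * swap 2 3) * g⁻¹) (by
    rw [h1, ← hg, sylow_coe_smul]
    exact conj_mem_cj (hP' (mem_zpowers _)))
  rw [conj_pow, mul_inv_eq_one, mul_eq_left] at h2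
  exact absurd h2 (by decide)

variable {Q J : Subgroup G} {ψ : ↥𝐍(Q) →* Perm (Fin 5)}

omit [Finite G] in
theorem card_eq (s : S5D Q J ψ) {A : Subgroup G} (hA : A ≤ 𝐍(Q)) :
    #|A| = #|(ψ.comp (inclusion hA)).range| * #|(A ⊓ Q : Subgroup G)| := by
  have h : (ψ.comp (inclusion hA)).ker = (A ⊓ Q).subgroupOf A := by
    ext a
    rw [MonoidHom.mem_ker, mem_subgroupOf, mem_inf]
    exact (s.ker _).trans ⟨fun h => ⟨a.2, h⟩, fun h => h.2⟩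
  rw [← (ψ.comp (inclusion hA)).ker.index_mul_card, index_ker, h,
    Nat.card_congr (subgroupOfEquivOfLe inf_le_left).toEquiv]

omit [Finite G] in
theorem range_le {A : Subgroup G} (hA : EA 2 A) (hAN : A ≤ 𝐍(Q)) :
    #|(ψ.comp (inclusion hAN)).range| ≤ 4 := by
  refine ea_le ?_
  rintro _ ⟨a, rfl⟩
  rw [← map_pow, show a ^ 2 = 1 from Subtype.ext (hA.2 a a.2), map_one]

omit [Finite G] in
theorem fix4 (s : S5D Q J ψ) {x : ↥𝐍(Q)} (hx : (x : G) ∈ 𝐍(J)) : ψ x 4 = 4 := by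
  obtain ⟨j, hj⟩ := s.surj v0
  have h1 : (j : G) ∈ J := (s.mem j).2 (by rw [hj]; decide)
  have h2 := ((s.mem (x⁻¹ * j * x)).1 (by simpa using conj_mem (inv_mem hx) h1)).1
  rw [map_mul, map_mul, map_inv, hj, Perm.mul_apply, Perm.mul_apply, Perm.inv_eq_iff_eq] at h2
  generalize ψ x 4 = i at h2
  revert i
  decide

theorem norm_J (s : S5D Q J ψ) (hJ : J ≤ 𝐍(Q)) {x : ↥𝐍(Q)} (hx : ψ x 4 = 4) : (x : G) ∈ 𝐍(J) := by
  refine mem_norm fun j hj => ?_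
  obtain ⟨h1, h2, h3⟩ := (s.mem ⟨j, hJ hj⟩).1 hj
  refine (s.mem (x * ⟨j, hJ hj⟩ * x⁻¹)).2 ?_
  rw [map_mul, map_mul, map_inv]
  refine ⟨?_, by simp [h2], by rw [conj_mul, h3]; simp⟩
  rw [Perm.mul_apply, Perm.mul_apply, Perm.inv_eq_iff_eq.2 hx.symm, h1, hx]

omit [Finite G] in
theorem odd (s : S5D Q J ψ) {x : ↥𝐍(Q)} (hx : (x : G) ∈ 𝐍(J)) (hxJ : (x : G) ∉ J)
    (h2 : (x : G) * x = 1) : sign (ψ x) ≠ 1 := fun h => hxJ ((s.mem x).2 ⟨fix4 s hx, h, by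
  rw [← map_mul, show x * x = 1 from Subtype.ext h2, map_one]⟩)

omit [Finite G] in
theorem lift3 (s : S5D Q J ψ) (hQ : EA 2 Q) {w : ↥𝐍(Q)} {c : Perm (Fin 5)} (hw : ψ w = c)
    (h3 : c ^ 3 = 1) (h1 : c ≠ 1) : ψ (w ^ 4) = c ∧ orderOf ((w ^ 4 : ↥𝐍(Q)) : G) = 3 := by
  have : Fact (Nat.Prime 3) := ⟨Nat.prime_three⟩
  have h4 : ψ (w ^ 4) = c := by rw [map_pow, hw, pow_succ, h3, one_mul]
  refine ⟨h4, orderOf_eq_prime ?_ fun e => h1 ?_⟩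
  · have h5 := hQ.2 _ ((s.ker (w ^ 3)).1 (by rw [map_pow, hw, h3]))
    calc ((w ^ 4 : ↥𝐍(Q)) : G) ^ 3 = (((w ^ 3 : ↥𝐍(Q)) : G) ^ 2) ^ 2 := by
          push_cast
          simp only [← pow_mul]
      _ = 1 := by rw [h5, one_pow]
  · rw [← h4, show w ^ 4 = 1 from Subtype.ext e, map_one]

theorem zero (d : NatD p 4 Q J) (s : S5D Q J ψ) (hm : #|(Q ⊓ 𝐂(J) : Subgroup G)| = 4)
    {f : ↥𝐍(Q)} (h4 : ψ f 4 = 4) (hodd : sign (ψ f) ≠ 1)
    (hc : ∀ z ∈ Q ⊓ 𝐂(J), Commute (f : G) z) : False := by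
  obtain ⟨w, hw⟩ := s.surj c0
  obtain ⟨hu, hu3⟩ := lift3 s d.ea hw (by decide) (by decide)
  generalize w ^ 4 = u at hu hu3
  have huJ := norm_J s d.JN (x := u) (by rw [hu]; decide)
  have h1 : ((u * (f * u * f⁻¹) : ↥𝐍(Q)) : G) ∈ J := (s.mem _).2 (by
    rw [map_mul, map_mul, map_mul, map_inv, hu]
    exact p1 _ h4 hodd)
  obtain ⟨⟨z, hz⟩, hz1⟩ := (Subgroup.ne_bot_iff_exists_ne_one (H := Q ⊓ 𝐂(J))).1 (fun e => by
    rw [e, card_bot] at hm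
    omega)
  refine hz1 (Subtype.ext (s.fpf u u.2 hu3 z hz.1 ?_))
  refine commute_of_sq (p := 3) (by decide) (hu3 ▸ pow_orderOf_eq_one _) ?_
  have h2 := (mem_cent.1 hz.2 _ h1).eq
  have h3 := (hc _ (conj_mem (norm_inf_cent u.2 huJ) hz)).eq
  have h5 := (hc z hz).inv_left.eq
  push_cast at h2
  calc (u : G) * u * z = u * ((u * z * (u : G)⁻¹) * f) * (f : G)⁻¹ * u := by group
    _ = u * (f * u * (z * (f : G)⁻¹)) * ((f : G) * (u : G)⁻¹ * (f : G)⁻¹ * u) := by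
      rw [← h3]; group
    _ = (u * (f * u * (f : G)⁻¹) * z) * ((f : G) * (u : G)⁻¹ * (f : G)⁻¹ * u) := by
      rw [← h5]; group
    _ = z * (u * u) := by rw [h2]; group

theorem exists_f (d : NatD p 4 Q J) (s : S5D Q J ψ) :
    ∃ f : ↥𝐍(Q), ψ f = t0 ∧ (f : G) * f = 1 := by
  obtain ⟨w, hw⟩ := s.surj c0
  obtain ⟨hu, hu3⟩ := lift3 s d.ea hw (by decide) (by decide)
  generalize w ^ 4 = u at hu hu3
  obtain ⟨t, ht⟩ := s.surj t0
  have h1 : ((u * (t * u * t⁻¹) : ↥𝐍(Q)) : G) ∈ Q := (s.ker _).1 (by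
    simp only [map_mul, map_inv, hu, ht]
    decide)
  let φ : Q → Q := fun q => ⟨u * q * (u : G)⁻¹ * (q : G)⁻¹,
    mul_mem (conj_mem u.2 q.2) (inv_mem q.2)⟩
  have hφ : Function.Injective φ := by
    intro a b h
    have h2 : (u : G) * a * (u : G)⁻¹ * (a : G)⁻¹ = u * b * (u : G)⁻¹ * (b : G)⁻¹ :=
      congrArg Subtype.val h
    have h3 : (b : G)⁻¹ * a = 1 := by
      refine s.fpf u u.2 hu3 _ (b⁻¹ * a).2 ?_
      calc (u : G) * ((b : G)⁻¹ * a)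
          = u * (b : G)⁻¹ * (u : G)⁻¹ * (u * a * (u : G)⁻¹ * (a : G)⁻¹) * a * u := by group
        _ = (b : G)⁻¹ * a * u := by rw [h2]; group
    exact Subtype.ext (inv_mul_eq_one.1 h3).symm
  obtain ⟨q, hq⟩ := Finite.surjective_of_injective hφ ⟨_, inv_mem h1⟩
  have h2 : (u : G) * q * (u : G)⁻¹ * (q : G)⁻¹ = ((u : G) * (t * u * (t : G)⁻¹))⁻¹ :=
    congrArg Subtype.val hq
  have h3 := (d.ea.1 _ h1 _ q.2).inv_right.eq
  push_cast at h3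
  let q' : ↥𝐍(Q) := ⟨q, le_normalizer q.2⟩
  have h4 : ψ (q' * t) = t0 := by rw [map_mul, (s.ker q').2 q.2, one_mul, ht]
  have h5 : ((q : G) * t) * u * ((q : G) * t)⁻¹ = (u : G)⁻¹ := by
    calc ((q : G) * t) * u * ((q : G) * t)⁻¹
        = q * (u : G)⁻¹ * ((u : G) * (t * u * (t : G)⁻¹) * (q : G)⁻¹) := by group
      _ = (u : G)⁻¹ * ((u : G) * q * (u : G)⁻¹ * (q : G)⁻¹) * ((u : G) * (t * u * (t : G)⁻¹)) := by
        rw [h3]; group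
      _ = (u : G)⁻¹ := by rw [h2]; group
  refine ⟨q' * t, h4, s.fpf u u.2 hu3 _ ((s.ker (q' * t * (q' * t))).1 (by
    rw [map_mul, h4]; decide)) ?_⟩
  change Commute (u : G) ((q : G) * t * ((q : G) * t))
  generalize (q : G) * t = f at h5
  refine (mul_inv_eq_iff_eq_mul.1 ?_ : f * f * u = u * (f * f)).symm
  calc f * f * u * (f * f)⁻¹ = f * (f * u * f⁻¹) * f⁻¹ := by group
    _ = (f * u * f⁻¹)⁻¹ := by rw [h5]; nth_rewrite 2 [← h5]; group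
    _ = u := by rw [h5, inv_inv]

theorem conj_f (d : NatD p 4 Q J) (hm : #|(Q ⊓ 𝐂(J) : Subgroup G)| = 4) {f : G} (hf : f ∈ 𝐍(Q))
    (hfQ : f ∉ Q) (h2 : f * f = 1) : #|(Q ⊓ 𝐂₁(f) : Subgroup G)| = 4 ∧
      ∀ x ∈ Q, f * x * (f * x) = 1 → ∃ q ∈ Q, q * f * q⁻¹ = f * x := by
  have hQ : #|Q| = 16 := by rw [← d.cardZ, hm]; norm_num
  have h1 := d.two f hf hfQ ⟨1, by rw [pow_one, sq, h2]⟩
  rw [hm] at h1
  have fi : f⁻¹ = f := inv_eq_of_mul_eq_one_right h2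
  have qi : ∀ q ∈ Q, q⁻¹ = q := fun q hq =>
    inv_eq_of_mul_eq_one_right (by rw [← sq]; exact d.ea.2 q hq)
  let φ : Q →* ↥(Q ⊓ 𝐂₁(f)) := MonoidHom.mk' (fun q => ⟨q * (f * q * f⁻¹),
    mul_mem q.2 (conj_mem hf q.2), mem_cent1.2 (by
      refine mul_inv_eq_iff_eq_mul.1 ?_
      rw [(d.ea.1 _ q.2 _ (conj_mem hf q.2)).eq]
      nth_rewrite 1 [← (d.ea.1 _ q.2 _ (conj_mem hf q.2)).eq]
      calc _ = f * q * f⁻¹ * ((f * f) * q * (f * f)⁻¹) := by group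
        _ = _ := by rw [h2]; group)⟩) fun a b => Subtype.ext (by
      have := (d.ea.1 _ b.2 _ (conj_mem hf a.2)).eq
      change ((a : G) * b) * (f * (a * b) * f⁻¹) = a * (f * a * f⁻¹) * (b * (f * b * f⁻¹))
      calc _ = a * (b * (f * a * f⁻¹)) * (f * b * f⁻¹) := by group
        _ = _ := by rw [this]; group)
  have hk : φ.ker = (Q ⊓ 𝐂₁(f)).subgroupOf Q := by
    ext a
    rw [MonoidHom.mem_ker, mem_subgroupOf, Subtype.ext_iff, mem_inf, mem_cent1]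
    change (a : G) * (f * a * f⁻¹) = 1 ↔ _
    rw [mul_eq_one_iff_inv_eq, qi a a.2, eq_mul_inv_iff_mul_eq]
    exact ⟨fun h => ⟨a.2, h.symm⟩, fun h => h.2.symm⟩
  have h3 : #|(Q ⊓ 𝐂₁(f) : Subgroup G)| * #|φ.range| = 16 := by
    rw [← hQ, ← φ.ker.card_mul_index, index_ker, hk,
      Nat.card_congr (subgroupOfEquivOfLe inf_le_left).toEquiv]
  have h4 : #|φ.range| ≤ #|(Q ⊓ 𝐂₁(f) : Subgroup G)| := card_le_card_group _
  have h5 : #|(Q ⊓ 𝐂₁(f) : Subgroup G)| = 4 ∧ #|φ.range| = 4 := by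
    constructor <;> nlinarith
  refine ⟨h5.1, fun x hx hx2 => ?_⟩
  have h6 : Commute f x := by
    rw [mul_eq_one_iff_eq_inv, mul_inv_rev, fi, qi x hx] at hx2
    exact hx2
  obtain ⟨q, hq⟩ := MonoidHom.range_eq_top.1 (eq_top_of_card_eq _ (h5.2.trans h5.1.symm))
    ⟨x, hx, mem_cent1.2 h6⟩
  have h7 : (q : G) * (f * q * f⁻¹) = x := congrArg Subtype.val hq
  refine ⟨q, q.2, ?_⟩
  rw [h6.eq, ← h7, qi q q.2]
  group

theorem sb (ht : Thin G) (d : NatD p 4 Q J) (s : S5D Q J ψ)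
    (hm : #|(Q ⊓ 𝐂(J) : Subgroup G)| = 4) : 𝐍(J) ≤ 𝐍(Q) := by
  have : Fact (Nat.Prime 2) := ⟨Nat.prime_two⟩
  have hQ : #|Q| = 16 := by rw [← d.cardZ, hm]; norm_num
  have two : ∀ n ∈ 𝐍(J), EA 2 (n •ᶜ Q) ∧ n •ᶜ Q ≤ J ∧ 4 ^ 2 ≤ #|(n •ᶜ Q : Subgroup G)| := by
    intro n hn
    refine ⟨⟨?_, ?_⟩, cj_le_of_mem_normalizer d.QJ hn, by rw [card_cj, hQ]; norm_num⟩
    · rintro _ ⟨a, ha, rfl⟩ _ ⟨b, hb, rfl⟩
      exact comm_conj (d.ea.1 a ha b hb)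
    · rintro _ ⟨a, ha, rfl⟩
      change (n * a * n⁻¹) ^ 2 = 1
      rw [conj_pow, d.ea.2 a ha]
      simp
  intro s0 hs0
  by_contra hsQ
  obtain ⟨f, hf, f2⟩ := exists_f d s
  have f4 : ψ f 4 = 4 := by rw [hf]; decide
  have fo : sign (ψ f) ≠ 1 := by rw [hf]; decide
  have fN := norm_J s d.JN f4
  have fJ : (f : G) ∉ J := fun h => fo ((s.mem f).1 h).2.1
  have fQ : (f : G) ∉ Q := fun h => fJ (d.QJ h)
  obtain ⟨hW, hcj⟩ := conj_f d hm f.2 fQ f2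
  have key : ∀ g : ↥𝐍(Q), ψ g = t0 → (g : G) * g = 1 → ∃ q ∈ Q, q * f * q⁻¹ = g := by
    intro g hg g2
    have h1 : ((f⁻¹ * g : ↥𝐍(Q)) : G) ∈ Q :=
      (s.ker _).1 (by rw [map_mul, map_inv, hf, hg, inv_mul_cancel])
    simpa using hcj _ h1 (by simpa using g2)
  have h1 : s0 * f * s0⁻¹ ∈ 𝐍(Q) := by
    obtain ⟨k1, k2, k3⟩ := two _ (inv_mem hs0)
    have hne : s0⁻¹ •ᶜ Q ≠ Q := fun e => hsQ (by
      simpa using inv_mem (mem_normalizer_iff_cj.2 e))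
    obtain ⟨l1, l2, l3⟩ := two _ (mul_mem fN (inv_mem hs0))
    rcases (d.twoEA hm k1 k2 k3 hne).2.2.2.2 _ l1 l2 l3 with e | e
    · rw [cj_mul, cj_eq_iff, cj_eq_of_mem_normalizer (inv_mem f.2)] at e
      exact (hne e).elim
    · rw [mem_normalizer_iff_cj, mul_assoc, cj_mul, e, cj_inv_cj]
  obtain ⟨t, htJ, htQ, htf⟩ : ∃ t ∈ 𝐍(J), t ∉ 𝐍(Q) ∧ Commute (f : G) t := by
    have g2 : (s0 * f * s0⁻¹) * (s0 * f * s0⁻¹) = 1 := by rw [conj_mul, f2]; simp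
    have gN : s0 * f * s0⁻¹ ∈ 𝐍(J) := mul_mem (mul_mem hs0 fN) (inv_mem hs0)
    obtain ⟨ρ, r4, hρ⟩ := p2 (ψ ⟨_, h1⟩) (fix4 s gN)
      (by rw [← map_mul, ← ψ.map_one]; congr 1; exact Subtype.ext g2)
      (odd s gN (fun h => fJ (by simpa [mul_assoc] using conj_mem (inv_mem hs0) h)) g2)
    obtain ⟨m, rfl⟩ := s.surj ρ
    obtain ⟨q, hq, e⟩ := key (m⁻¹ * ⟨_, h1⟩ * m) (by rw [map_mul, map_mul, map_inv, hρ]) (by
      push_cast
      calc _ = (m : G)⁻¹ * ((s0 * f * s0⁻¹) * (s0 * f * s0⁻¹)) * m := by group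
        _ = 1 := by rw [g2]; group)
    push_cast at e
    refine ⟨q⁻¹ * (m : G)⁻¹ * s0, mul_mem (mul_mem (inv_mem (le_normalizer (d.QJ hq)))
      (inv_mem (norm_J s d.JN r4))) hs0, fun h => hsQ ?_, ?_⟩
    · simpa [mul_assoc] using mul_mem (mul_mem m.2 (le_normalizer hq)) h
    · calc (f : G) * (q⁻¹ * (m : G)⁻¹ * s0) = q⁻¹ * (q * f * q⁻¹) * (m : G)⁻¹ * s0 := by group
        _ = q⁻¹ * (m : G)⁻¹ * s0 * f := by rw [e]; group
  obtain ⟨u, hu, hu3, huf⟩ : ∃ u : ↥𝐍(Q), ψ u = c1 ∧ orderOf (u : G) = 3 ∧ Commute (u : G) f := by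
    obtain ⟨w, hw⟩ := s.surj c1
    obtain ⟨q, hq, e⟩ := key (w * f * w⁻¹) (by rw [map_mul, map_mul, map_inv, hw, hf]; decide) (by
      push_cast
      rw [conj_mul, f2]
      simp)
    push_cast at e
    let q' : ↥𝐍(Q) := ⟨q, le_normalizer hq⟩
    obtain ⟨k1, k2⟩ := lift3 s d.ea (w := q'⁻¹ * w) (c := c1)
      (by rw [map_mul, map_inv, (s.ker q').2 hq, hw]; simp) (by decide) (by decide)
    refine ⟨_, k1, k2, ?_⟩
    have : Commute (q⁻¹ * (w : G)) f := by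
      calc q⁻¹ * (w : G) * f = q⁻¹ * (w * f * (w : G)⁻¹) * w := by group
        _ = f * (q⁻¹ * w) := by rw [← e]; group
    exact this.pow_left 4
  have fo2 : orderOf (f : G) = 2 :=
    orderOf_eq_prime (by rw [sq, f2]) fun e => fQ (e ▸ one_mem Q)
  have hWR : Q ⊓ 𝐂₁((f : G)) ≤ Qz (f : G) := ht.inv f u _ fo2 hu3 huf inf_le_right
    (d.ea.isPGroup.to_le inf_le_left) (mem_norm fun x hx => ⟨conj_mem u.2 hx.1, mem_cent1.2 (by
      have := comm_conj (g := (u : G)) (mem_cent1.1 hx.2)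
      rwa [huf.eq, mul_inv_cancel_right] at this)⟩)
  have hRJ : ∀ r ∈ Qz (f : G), r ∈ J → r ∈ Q := by
    intro r hr hrJ
    let r' : ↥𝐍(Q) := ⟨r, d.JN hrJ⟩
    by_contra hn
    obtain ⟨k1, k2⟩ := p3 (ψ r') ((s.mem r').1 hrJ) (by
      rw [← hf, ← map_mul, ← map_mul]
      congr 1
      exact Subtype.ext (mem_cent1.1 (oP_le _ hr)).symm) fun e => hn ((s.ker r').1 e)
    obtain ⟨k, hk⟩ := pg_elem (oP_isPGroup _)
      (mul_mem hr (conj_mem (oP_normal _ (mem_cent1.2 huf.symm)) hr))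
    have k3 : (r' * (u * r' * u⁻¹)) ^ 2 ^ k = 1 := Subtype.ext hk
    have k4 := congrArg ψ k3
    simp only [map_mul, map_pow, map_inv, map_one, hu] at k4
    have : Fact (Nat.Prime 3) := ⟨Nat.prime_three⟩
    exact k2 (eq_one_of_two_primes (p := 3) (k := 1) (by norm_num) k1 k4)
  obtain ⟨k1, k2, k3⟩ := two t htJ
  have hZ := (d.twoEA hm k1 k2 k3 fun e => htQ (mem_normalizer_iff_cj.2 e)).1
  have h3 : t •ᶜ (Q ⊓ 𝐂₁((f : G))) = Q ⊓ 𝐂(J) := by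
    refine eq_of_le_of_card_ge (cj_le_iff_forall.2 fun x hx => hZ.le ⟨conj_mem_cj hx.1, ?_⟩)
      (by rw [card_cj, hW, hm])
    exact hRJ _ (conj_mem (oP_normal _ (mem_cent1.2 htf)) (hWR hx)) (conj_mem htJ (d.QJ hx.1))
  refine zero d s hm f4 fo fun z hz => ?_
  obtain ⟨x, hx, rfl⟩ := mem_cj'.1 (h3.ge hz)
  exact (htf.mul_right (mem_cent1.1 hx.2)).mul_right htf.inv_right

end S5

set_option linter.unusedSectionVars false in
/-- The image of A in S₅ is elementary abelian, so has order ≤ 4 (S₅ has no E8: |S₅|₂ = 8 and the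
Sylow 2-subgroup is nonabelian); the kernel of ψ on A is A ⊓ Q. -/
theorem S5D.rk {Q J : Subgroup G} {ψ : ↥𝐍(Q) →* Equiv.Perm (Fin 5)} (s : S5D Q J ψ) : Rk 4 Q := by
  intro A hA hAN
  rw [S5.card_eq s hAN]
  exact Nat.mul_le_mul_right _ (S5.range_le hA hAN)

/-- H = N(Q), Z = Q ⊓ C(J) of order 4, V4 = ψ(J), N_H(J) = ψ⁻¹(Stab 4) (≅ S₄ mod Q).
(0) No f ∈ H with ψ f a transposition fixing 4 centralizes Z: take u0 ∈ H of order 3 with ψ u0 a 3-cycle fixing 4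
inverted by ψ f (lift: an odd-order power); f u0 f⁻¹ ∈ u0⁻¹ Q, u0 normalizes Z, so u0² would centralize Z ≠ 1.
sc: ψ X is a 2-group containing V4, order ≤ 8, so |X| ≤ 2|J| and J has index ≤ 2.
sa: if A ≰ J then |A ⊓ Q| ≤ 4 (`two`), |ψ A| ≤ 4, so both are 4; ψ A is a four-group in Stab 4 other than V4, so contains a
transposition ψ f and an element ψ j of V4# (j ∈ A ⊓ J \ Q); A ⊓ Q = C_Q(j) = Z (`cj`), against (0).
sb (left): suppose N = N(J) ≰ H.  `twoEA`: Q, Q' are the two E16 of J, N ⊓ H has index 2 in N, |N| = 64·12.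
u0 ∈ N ⊓ H of order 3 has C_J(u0) = 1; J⟨u0⟩ is normal in N, Frattini: N = J X, X = N_N(⟨u0⟩), X ⊓ J = 1, |X| = 12,
X ⊓ H ≅ S₃ contains an involution f inverting u0 (ψ f a transposition fixing 4), C_X(u0) has order 6 with a unique
involution s, central in X, s ∉ H, so Q^s = Q'.  W = C_Q(f) has order 4 (`two`; [f,Q] ≤ W).  Some u' ∈ H of order
3 centralizes f (the class of f in H has ≤ 10·4 elements, |H| = 1920, |C_H(f)| divides 4·12; or: the 3-cycle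
on the fixed points of ψ f fixes one of the 4 involutions f x, x ∈ W, which are Q-conjugate).  `inv`: W ≤ R = Qz f.
R ⊓ J ≤ Q: ψ(R ⊓ H) is a 2-subgroup of C(ψ f) = 2 × S₃ normalized by ψ u', so lies in ⟨ψ f⟩, and ψ f ∉ V4.  As s
normalizes R and J, W^s ≤ R ⊓ J ≤ Q, so W^s ≤ Q ⊓ Q' = Z, W^s = Z is centralized by f^s = f, against (0). -/
theorem S5D.bd (ht : Thin G) {Q J : Subgroup G} (d : NatD p 4 Q J)
    {ψ : ↥𝐍(Q) →* Equiv.Perm (Fin 5)} (s : S5D Q J ψ) (hm : #|(Q ⊓ 𝐂(J) : Subgroup G)| = 4) :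
    BD 4 Q J := by
  have : Fact (Nat.Prime 2) := ⟨Nat.prime_two⟩
  have hQ : #|Q| = 16 := by rw [← d.cardZ, hm]; norm_num
  refine ⟨fun A hA hAQ hAJ hc a ha => ?_, fun X hX hJX hXQ => ?_, Or.inl (S5.sb ht d s hm)⟩
  · by_contra haJ
    have a2 : a * a = 1 := by rw [← sq]; exact hA.2 a ha
    have h1 : #|(A ⊓ Q : Subgroup G)| ≤ 4 := by
      refine le_trans (card_le_of_le fun x hx => ?_) (hm ▸ d.two a (hAQ ha)
        (fun h => haJ (d.QJ h)) ⟨1, by rw [pow_one, sq, a2]⟩)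
      exact ⟨hx.2, mem_cent1.2 (hA.1 a ha x hx.1)⟩
    have h2 := S5.range_le (ψ := ψ) hA hAQ
    have h3 := S5.card_eq s hAQ
    have h4 : #|(ψ.comp (inclusion hAQ)).range| = 4 ∧ #|(A ⊓ Q : Subgroup G)| = 4 := by
      constructor <;> nlinarith
    have hodd := S5.odd s (x := ⟨a, hAQ ha⟩) (hAJ ha) haJ a2
    obtain ⟨j, hj1, hj2⟩ : ∃ j : A, ψ (inclusion hAQ j) ≠ 1 ∧
        Equiv.Perm.sign (ψ (inclusion hAQ j)) = 1 := by
      obtain ⟨b, hb1, hb2⟩ : ∃ b : A, ψ (inclusion hAQ b) ≠ 1 ∧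
          ψ (inclusion hAQ b) ≠ ψ ⟨a, hAQ ha⟩ := by
        by_contra hn
        push Not at hn
        have h5 : ((ψ.comp (inclusion hAQ)).range : Set (Equiv.Perm (Fin 5))) ⊆
            {1, ψ ⟨a, hAQ ha⟩} := by
          rintro _ ⟨b, rfl⟩
          by_cases h : ψ (inclusion hAQ b) = 1
          · exact Or.inl h
          · exact Or.inr (hn b h)
        have h6 := (Set.ncard_le_ncard h5).trans (Set.ncard_insert_le _ _)
        rw [Set.ncard_singleton, ← Nat.card_coe_set_eq] at h6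
        have h7 : #|(ψ.comp (inclusion hAQ)).range| ≤ 2 := h6
        omega
      by_cases hs : Equiv.Perm.sign (ψ (inclusion hAQ b)) = 1
      · exact ⟨b, hb1, hs⟩
      refine ⟨(⟨a, ha⟩ : A)⁻¹ * b, fun e => hb2 ?_, ?_⟩
      · rw [map_mul, map_mul, map_inv, map_inv, inv_mul_eq_one] at e
        exact e.symm
      · rw [map_mul, map_mul, map_inv, map_inv, map_mul, map_inv,
          (Int.units_eq_one_or _).resolve_left hs]
        change (Equiv.Perm.sign (ψ ⟨a, hAQ ha⟩))⁻¹ * -1 = 1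
        rw [(Int.units_eq_one_or _).resolve_left hodd]
        decide
    have hjJ : (j : G) ∈ J := (s.mem (inclusion hAQ j)).2
      ⟨S5.fix4 s (x := inclusion hAQ j) (hAJ j.2), hj2, by
        rw [← map_mul, ← ψ.map_one]
        congr 1
        exact Subtype.ext (by rw [← sq]; exact hA.2 j j.2)⟩
    have hjQ : (j : G) ∉ Q := fun h => hj1 ((s.ker (inclusion hAQ j)).2 h)
    have h5 : A ⊓ Q = Q ⊓ 𝐂(J) := eq_of_le_of_card_ge
      (fun x hx => ⟨hx.2, d.cj j hjJ hjQ x hx.2 (hA.1 j j.2 x hx.1)⟩) (by rw [hm, h4.2])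
    exact S5.zero d s hm (f := ⟨a, hAQ ha⟩) (S5.fix4 s (hAJ ha)) hodd fun z hz =>
      hA.1 a ha z (h5.ge hz).1
  · have h1 := S5.card_eq s hXQ
    have h2 := S5.two_le (hX.of_surjective _ (ψ.comp (inclusion hXQ)).rangeRestrict_surjective)
    rw [inf_eq_right.2 (d.QJ.trans hJX)] at h1
    have h3 : #|X| ≤ 2 * #|J| := by
      rw [h1, d.cardJ, hQ]
      omega
    refine ⟨?_, h3⟩
    rcases hJX.eq_or_lt with e | hlt
    · exact e ▸ le_normalizer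
    have h4 := mul_card_le_of_lt (hX.to_le inf_le_left) (lt_inf_normalizer_of_lt hX hlt)
    exact inf_eq_left.1 (eq_of_le_of_card_ge inf_le_left (h3.trans h4))

end CL.K3
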