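import Cfsg.Agent.INV.K3.Base

/-! One natural module: `J` has at most two elementary abelian subgroups of order `q²`. -/

set_option autoImplicit false
open Subgroup Cfsg CL.MSS CL.BG CL.KM

namespace CL.K3
variable {G : Type*} [Group G] [Finite G] {p : ℕ}

theorem NatD.oneEA {q : ℕ} {Q J : Subgroup G} (d : NatD p q Q J)
    (hm : #|(Q ⊓ 𝐂(J) : Subgroup G)| = q) {A : Subgroup G} (hA : EA 2 A) (hAJ : A ≤ J)
    (hc : q ^ 2 ≤ #|A|) (hne : A ≠ Q) :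
    A ⊓ Q = Q ⊓ 𝐂(J) ∧ #|A| = q ^ 2 ∧ A ⊔ Q = J := by
  have hQ : #|Q| = q ^ 2 := by rw [← d.cardZ, hm]
  have hJ := d.cardJ
  obtain ⟨a, ha, haQ⟩ := SetLike.not_le_iff_exists.1 fun h : A ≤ Q =>
    hne (eq_of_le_of_card_ge h (hQ ▸ hc))
  have h1 : A ⊓ Q ≤ Q ⊓ 𝐂(J) := fun x hx => ⟨hx.2, d.cj a (hAJ ha) haQ x hx.2 (hA.1 a ha x hx.1)⟩
  have h2 : A ⊔ Q ≤ J := sup_le hAJ d.QJ
  have h3 := CL.card_sup_mul_card_inf_of_le_normalizer (hAJ.trans d.JN)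
  have h4 := card_le_of_le h1
  have h5 := card_le_of_le h2
  rw [hm] at h4
  rw [hQ] at h3 hJ
  rw [hJ] at h5
  have key : q ≤ #|(A ⊓ Q : Subgroup G)| ∧ #|A| ≤ q ^ 2 ∧ q * q ^ 2 ≤ #|(A ⊔ Q : Subgroup G)| := by
    generalize #|(A ⊓ Q : Subgroup G)| = i at *
    generalize #|(A ⊔ Q : Subgroup G)| = s at *
    generalize #|A| = n at *
    have e1 := Nat.mul_le_mul_right i h5
    have e2 := Nat.mul_le_mul_left s h4
    rcases d.pq with ⟨-, rfl⟩ | ⟨-, rfl⟩ <;> omega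
  exact ⟨eq_of_le_of_card_ge h1 (hm ▸ key.1), le_antisymm key.2.1 hc,
    eq_of_le_of_card_ge h2 (hJ ▸ key.2.2)⟩

/-- Z = Q ⊓ C(J), |Z| = q, |Q| = q², |J| = q³.  If A ≤ J is EA, q² ≤ |A|, A ≠ Q, then A ≰ Q; for
a ∈ A \ Q, A ⊓ Q ≤ C_Q(a) = Z (`cj`), and |A| ≤ q |A ⊓ Q| (A Q ≤ J), so A ⊓ Q = Z, |A| = q², A Q = J.
An element j = a x (a ∈ A, x ∈ Q) with j² = 1 and a ∉ Q has x commuting with a, so x ∈ Z ≤ A. -/
theorem NatD.twoEA {q : ℕ} {Q J : Subgroup G} (d : NatD p q Q J)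
    (hm : #|(Q ⊓ 𝐂(J) : Subgroup G)| = q) {A : Subgroup G} (hA : EA 2 A) (hAJ : A ≤ J)
    (hc : q ^ 2 ≤ #|A|) (hne : A ≠ Q) :
    A ⊓ Q = Q ⊓ 𝐂(J) ∧ #|A| = q ^ 2 ∧ A ⊔ Q = J ∧ (∀ j ∈ J, j * j = 1 → j ∈ Q ∨ j ∈ A) ∧
      ∀ B : Subgroup G, EA 2 B → B ≤ J → q ^ 2 ≤ #|B| → B = Q ∨ B = A := by
  obtain ⟨h1, h2, h3⟩ := d.oneEA hm hA hAJ hc hne
  have h4 : ∀ j ∈ J, j * j = 1 → j ∈ Q ∨ j ∈ A := by
    intro j hj hjj
    rw [← h3] at hj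
    obtain ⟨a, ha, x, hx, rfl⟩ := (mem_sup_of_normalizes_right (hAJ.trans d.JN)).1 hj
    by_cases haQ : a ∈ Q
    · exact Or.inl (mul_mem haQ hx)
    have a2 : a⁻¹ = a := inv_eq_of_mul_eq_one_right (by rw [← pow_two]; exact hA.2 a ha)
    have x2 : x⁻¹ = x := inv_eq_of_mul_eq_one_right (by rw [← pow_two]; exact d.ea.2 x hx)
    have hc : Commute a x := by
      have := inv_eq_of_mul_eq_one_right hjj
      rw [mul_inv_rev, a2, x2] at this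
      exact this.symm
    have : x ∈ A ⊓ Q := by rw [h1]; exact ⟨hx, d.cj a (hAJ ha) haQ x hx hc⟩
    exact Or.inr (mul_mem ha this.1)
  refine ⟨h1, h2, h3, h4, fun B hB hBJ hBc => or_iff_not_imp_left.2 fun hBQ => ?_⟩
  obtain ⟨k1, -, -⟩ := d.oneEA hm hB hBJ hBc hBQ
  refine eq_of_le_of_card_ge (fun b hb => ?_) (h2 ▸ hBc)
  rcases h4 b (hBJ hb) (by rw [← pow_two]; exact hB.2 b hb) with h | h
  · have : b ∈ A ⊓ Q := by rw [h1, ← k1]; exact ⟨hb, h⟩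
    exact this.1
  · exact h

end CL.K3
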